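import Cfsg.Agent.Cores.Fitting
import Cfsg.Agent.CharInd.Ito
import Cfsg.Agent.Char.InvolutionCount
import Cfsg.Prelude.Def_DegreeGraph
import Mathlib.GroupTheory.GroupAction.FixedPoints
import Mathlib.GroupTheory.PGroup

/-!
# A prime that must be a degree prime forces non-solvability

If `p` divides `|G|` exactly once and no prime power dividing `|G|` is congruent to one modulo `p`,
except for full Sylow orders of degree primes, then in a solvable group the Sylow `p`-subgroup
centralizes the Fitting subgroup, so it is normal and `p` is no degree prime.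
-/

set_option autoImplicit false
set_option linter.style.haveILetI false

namespace Cfsg.Agent.FGS75.SmallSimple

open Subgroup

variable {G : Type*} [Group G] [Finite G]

/-- **Ito**: no degree is divisible by a prime not dividing the index of an abelian normal subgroup. -/
theorem not_mem_degreePrimes_of_abelian (A : Subgroup G) [A.Normal]
    (hA : ∀ a ∈ A, ∀ b ∈ A, a * b = b * a) {r : ℕ} (hr : ¬ r ∣ A.index) :
    r ∉ Cfsg.degreePrimes G := by
  rintro ⟨-, d, ⟨χ, rfl⟩, hd⟩
  obtain ⟨n, ρ, hρ, hρχ⟩ := χ.2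
  haveI := hρ
  have h1 := CharInd.finrank_dvd_index_of_comm_normal ρ A hA
  rw [Module.finrank_fin_fun] at h1
  have hdn : Cfsg.charDegree (χ : G → ℂ) = n := by
    rw [← hρχ]
    refine Char.charDegree_of_eq ?_
    rw [ρ.char_one, Module.finrank_fin_fun]
  exact hr ((hdn ▸ hd).trans h1)

theorem card_modEq_fixed {p : ℕ} [Fact p.Prime] {x : G} (hx : orderOf x = p) (U : Subgroup G)
    (hU : x ∈ normalizer (U : Set G)) :
    Nat.card U ≡ Nat.card (U ⊓ centralizer ({x} : Set G) : Subgroup G) [MOD p] := by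
  have hle : zpowers x ≤ normalizer (U : Set G) := zpowers_le.2 hU
  let ψ : zpowers x →* MulAut U := U.normalizerMonoidHom.comp (Subgroup.inclusion hle)
  letI : MulAction (zpowers x) U := MulAction.compHom U ψ
  have hsmul : ∀ (g : zpowers x) (u : U), ((g • u : U) : G) = (g : G) * u * (g : G)⁻¹ := fun g u => rfl
  have hp : IsPGroup p (zpowers x) := IsPGroup.of_card (n := 1) (by rw [Nat.card_zpowers, hx, pow_one])
  have e : MulAction.fixedPoints (zpowers x) U ≃ (U ⊓ centralizer ({x} : Set G) : Subgroup G) :=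
    { toFun := fun u => ⟨((u : U) : G), mem_inf.2 ⟨(u : U).2, mem_centralizer_singleton_iff.2 (by
        have h := congrArg Subtype.val (u.2 ⟨x, mem_zpowers x⟩)
        rw [hsmul] at h
        exact (mul_inv_eq_iff_eq_mul.1 h).symm)⟩⟩
      invFun := fun u => ⟨⟨u, (mem_inf.1 u.2).1⟩, fun g => Subtype.ext (by
        obtain ⟨i, hi⟩ := mem_zpowers_iff.1 g.2
        have hc : Commute x (u : G) := (show Commute (u : G) x from
          mem_centralizer_singleton_iff.1 (mem_inf.1 u.2).2).symm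
        rw [hsmul, ← hi, (hc.zpow_left i).eq, mul_inv_cancel_right])⟩
      left_inv := fun u => rfl
      right_inv := fun u => rfl }
  have h := hp.card_modEq_card_fixedPoints U
  rwa [Nat.card_congr e] at h

theorem exists_exponent {p r i : ℕ} (hp : p.Prime) (hr : r.Prime) (hrp : r ≠ p) {F : ℕ}
    (hF : F ∣ r ^ i) (hmod : r ^ i ≡ F [MOD p]) :
    ∃ k ≤ i, F = r ^ k ∧ p ∣ r ^ (i - k) - 1 := by
  obtain ⟨k, hk, rfl⟩ := (Nat.dvd_prime_pow hr).1 hF
  refine ⟨k, hk, rfl, ?_⟩
  have h1 : p ∣ r ^ i - r ^ k :=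
    (Nat.modEq_iff_dvd' (Nat.pow_le_pow_right hr.pos hk)).1 hmod.symm
  rw [show r ^ i = r ^ k * r ^ (i - k) by rw [← pow_add]; congr 1; omega,
    ← Nat.mul_sub_one] at h1
  exact (hp.dvd_mul.1 h1).resolve_left fun h =>
    hrp ((Nat.prime_dvd_prime_iff_eq hp hr).1 (hp.dvd_of_dvd_pow h)).symm

theorem le_centralizer_of_no_dvd {p : ℕ} [hp : Fact p.Prime] {x : G} (hx : orderOf x = p)
    {U : Subgroup G} (hU : x ∈ normalizer (U : Set G)) {r i : ℕ} (hr : r.Prime) (hrp : r ≠ p)
    (hc : Nat.card U = r ^ i) (h : ∀ j, 1 ≤ j → j ≤ i → ¬ p ∣ r ^ j - 1) :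
    U ≤ centralizer ({x} : Set G) := by
  obtain ⟨k, hk, hFk, hd⟩ := exists_exponent hp.out hr hrp
    (hc ▸ Subgroup.card_dvd_of_le (inf_le_left : U ⊓ centralizer ({x} : Set G) ≤ U))
    (hc ▸ card_modEq_fixed hx U hU)
  rcases Nat.eq_or_lt_of_le hk with e | e
  · have := Subgroup.eq_of_le_of_card_ge (inf_le_left : U ⊓ centralizer ({x} : Set G) ≤ U)
      (by rw [hc, hFk, e])
    exact this ▸ inf_le_right
  · exact absurd hd (h _ (by omega) (by omega))

theorem comm_of_no_dvd_lt {p : ℕ} [hp : Fact p.Prime] {x : G} (hx : orderOf x = p) {U : Subgroup G}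
    (hU : x ∈ normalizer (U : Set G)) {r i : ℕ} (hr : r.Prime) (hrp : r ≠ p) (hc : Nat.card U = r ^ i)
    (h : ∀ j, 1 ≤ j → j < i → ¬ p ∣ r ^ j - 1) :
    U ≤ centralizer ({x} : Set G) ∨ ∀ a ∈ U, ∀ b ∈ U, a * b = b * a := by
  obtain ⟨k, hk, hFk, hd⟩ := exists_exponent hp.out hr hrp
    (hc ▸ Subgroup.card_dvd_of_le (inf_le_left : U ⊓ centralizer ({x} : Set G) ≤ U))
    (hc ▸ card_modEq_fixed hx U hU)
  rcases Nat.eq_or_lt_of_le hk with e | e
  · have := Subgroup.eq_of_le_of_card_ge (inf_le_left : U ⊓ centralizer ({x} : Set G) ≤ U)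
      (by rw [hc, hFk, e])
    exact Or.inl (this ▸ inf_le_right)
  obtain rfl : k = 0 := by
    by_contra hk0
    exact h _ (by omega) (by omega) hd
  right
  set Z := (Subgroup.center U).map U.subtype with hZdef
  have hZU : Z ≤ U := Subgroup.map_subtype_le _
  have hmemZ : ∀ z, z ∈ Z ↔ z ∈ U ∧ ∀ u ∈ U, u * z = z * u := by
    intro z
    constructor
    · rintro ⟨w, hw, rfl⟩
      exact ⟨w.2, fun u hu => congrArg Subtype.val (Subgroup.mem_center_iff.1 hw ⟨u, hu⟩)⟩
    · rintro ⟨hz, hz'⟩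
      exact ⟨⟨z, hz⟩, Subgroup.mem_center_iff.2 fun u => Subtype.ext (hz' u u.2), rfl⟩
  have hZn : x ∈ normalizer (Z : Set G) := by
    have key : ∀ y, y ∈ normalizer (U : Set G) → ∀ z ∈ Z, y * z * y⁻¹ ∈ Z := by
      intro y hy z hz
      obtain ⟨hzU, hzc⟩ := (hmemZ z).1 hz
      refine (hmemZ _).2 ⟨((Subgroup.mem_normalizer_iff.1 hy) z).1 hzU, fun u hu => ?_⟩
      have hu' : y⁻¹ * u * y ∈ U := by
        have := ((Subgroup.mem_normalizer_iff.1 (inv_mem hy)) u).1 hu
        rwa [inv_inv] at this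
      have e := hzc _ hu'
      calc u * (y * z * y⁻¹) = y * (y⁻¹ * u * y * z) * y⁻¹ := by group
        _ = y * (z * (y⁻¹ * u * y)) * y⁻¹ := by rw [e]
        _ = y * z * y⁻¹ * u := by group
    rw [Subgroup.mem_normalizer_iff]
    refine fun z => ⟨key x hU z, fun hz => ?_⟩
    simpa [mul_assoc] using key x⁻¹ (inv_mem hU) _ hz
  have := Fact.mk hr
  have hZc : Nat.card Z = Nat.card (Subgroup.center U) :=
    (Nat.card_congr ((Subgroup.center U).equivMapOfInjective _ U.subtype_injective).toEquiv).symm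
  obtain ⟨m, hm⟩ := IsPGroup.iff_card.1 ((IsPGroup.of_card hc).to_le hZU)
  have hF1 : Nat.card (Z ⊓ centralizer ({x} : Set G) : Subgroup G) = 1 := by
    refine Nat.eq_one_of_dvd_one ?_
    have := Subgroup.card_dvd_of_le (inf_le_inf_right (centralizer ({x} : Set G)) hZU)
    rwa [hFk, pow_zero] at this
  obtain ⟨l, hl, hFl, hdl⟩ := exists_exponent hp.out hr hrp (F := 1) (i := m) (one_dvd _) (by
    have := card_modEq_fixed hx Z hZn
    rwa [hF1, hm] at this)
  have hl0 : l = 0 := by
    by_contra h0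
    have := Nat.one_lt_pow h0 hr.one_lt
    omega
  subst hl0
  have hm0 : m ≠ 0 := by
    intro hm0
    haveI : Nontrivial U := Finite.one_lt_card_iff_nontrivial.1 (by
      rw [hc]; exact Nat.one_lt_pow (by omega) hr.one_lt)
    haveI := (IsPGroup.of_card hc).center_nontrivial
    have := Finite.one_lt_card (α := Subgroup.center U)
    rw [← hZc, hm, hm0, pow_zero] at this
    omega
  have hmi : m ≤ i := by
    have := Subgroup.card_dvd_of_le hZU
    rw [hm, hc] at this
    exact (Nat.pow_dvd_pow_iff_le_right hr.one_lt).1 this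
  have hZeq : Z = U := Subgroup.eq_of_le_of_card_ge hZU (by
    rcases Nat.eq_or_lt_of_le hmi with e' | e'
    · rw [hm, hc, e']
    · exact absurd hdl (h _ (by omega) (by omega)))
  intro a ha b hb
  exact ((hmemZ b).1 (hZeq.symm ▸ hb)).2 a ha

/-- The non-solvability criterion. -/
theorem not_solvable_of_degreePrimes {p : ℕ} (hp : p.Prime) (hp1 : p ∣ Nat.card G)
    (hp2 : ¬ p ^ 2 ∣ Nat.card G) (hpd : p ∈ Cfsg.degreePrimes G)
    (h : ∀ r : ℕ, r.Prime → r ≠ p → ∀ j, 1 ≤ j → r ^ j ∣ Nat.card G → p ∣ r ^ j - 1 →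
      ¬ r ^ (j + 1) ∣ Nat.card G ∧ r ∈ Cfsg.degreePrimes G) :
    ¬ Group.IsSolvable G := by
  intro hsol
  haveI := hsol
  have := Fact.mk hp
  obtain ⟨x, hx⟩ := exists_prime_orderOf_dvd_card' (G := G) p hp1
  have hFle : Cfsg.fittingSubgroup G ≤ centralizer ({x} : Set G) := by
    rw [Cfsg.Agent.Cores.fittingSubgroup_eq_iSup_pCore]
    refine iSup_le fun q => ?_
    set U := Cfsg.pCore (q : ℕ) G with hUdef
    have := Fact.mk q.2
    haveI : U.Normal := inferInstance
    obtain ⟨i, hi⟩ := IsPGroup.iff_card.1 (Cfsg.Agent.Cores.pCore_isPGroup (p := (q : ℕ)) (G := G))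
    have hid : (q : ℕ) ^ i ∣ Nat.card G := hi ▸ Subgroup.card_subgroup_dvd_card U
    have hxN : x ∈ normalizer (U : Set G) := by rw [Subgroup.normalizer_eq_top]; exact mem_top x
    by_cases hqp : (q : ℕ) = p
    · have hPc : Nat.card (zpowers x) = p := by rw [Nat.card_zpowers, hx]
      have hi1 : i ≤ 1 := by
        by_contra hi1
        exact hp2 ((pow_dvd_pow p (show 2 ≤ i by omega)).trans (hqp ▸ hid))
      have hsup : IsPGroup p (zpowers x ⊔ U : Subgroup G) :=
        (IsPGroup.of_card (n := 1) (by rw [hPc, pow_one])).to_sup_of_normal_right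
          (IsPGroup.of_card (n := i) (by rw [hi, hqp]))
      obtain ⟨n, hn⟩ := IsPGroup.iff_card.1 hsup
      have hn1 : n ≤ 1 := by
        by_contra hn1
        exact hp2 ((pow_dvd_pow p (show 2 ≤ n by omega)).trans
          (hn ▸ Subgroup.card_subgroup_dvd_card _))
      have he : zpowers x = zpowers x ⊔ U := Subgroup.eq_of_le_of_card_ge le_sup_left (by
        rw [hPc, hn]
        exact (Nat.pow_le_pow_right hp.pos hn1).trans (pow_one p).le)
      intro u hu
      have : u ∈ zpowers x := he.symm ▸ Subgroup.mem_sup_right hu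
      obtain ⟨k, rfl⟩ := mem_zpowers_iff.1 this
      exact mem_centralizer_singleton_iff.2 ((Commute.refl x).zpow_left k).eq
    by_cases hex : ∃ j, 1 ≤ j ∧ j ≤ i ∧ p ∣ (q : ℕ) ^ j - 1
    · obtain ⟨j, hj1, hji, hjd⟩ := hex
      obtain ⟨hmax, hqd⟩ := h q q.2 hqp j hj1 ((pow_dvd_pow _ hji).trans hid) hjd
      obtain rfl : j = i := by
        by_contra hne
        exact hmax ((pow_dvd_pow _ (show j + 1 ≤ i by omega)).trans hid)
      refine (comm_of_no_dvd_lt hx hxN q.2 hqp hi fun j' h1 h2 h3 => ?_).resolve_right fun hab => ?_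
      · exact (h q q.2 hqp j' h1 ((pow_dvd_pow _ h2.le).trans hid) h3).1
          ((pow_dvd_pow _ (show j' + 1 ≤ j by omega)).trans hid)
      · refine not_mem_degreePrimes_of_abelian U hab (fun hd => hmax ?_) hqd
        rw [← U.card_mul_index, hi, pow_succ]
        exact Nat.mul_dvd_mul_left _ hd
    · push_neg at hex
      exact le_centralizer_of_no_dvd hx hxN q.2 hqp hi hex
  have hxF : x ∈ Cfsg.fittingSubgroup G := by
    refine Cfsg.Agent.Cores.centralizer_fittingSubgroup_le (fun y hy => ?_)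
    exact mem_centralizer_singleton_iff.1 (hFle hy)
  set F := Cfsg.fittingSubgroup G with hFdef
  haveI : F.Normal := inferInstance
  have hnil : Group.IsNilpotent F := Cfsg.Agent.Cores.fittingSubgroup_isNilpotent
  obtain ⟨P⟩ := (inferInstance : Nonempty (Sylow p F))
  haveI hPn : (P : Subgroup F).Normal :=
    ((Group.isNilpotent_of_finite_tfae (G := F)).out 0 3 rfl rfl).1 hnil p ⟨hp⟩ P
  haveI := Sylow.characteristic_of_normal P hPn
  set A := (P : Subgroup F).map F.subtype with hA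
  haveI : A.Normal := inferInstance
  have hAc : Nat.card A = p := by
    rw [hA, ← Nat.card_congr ((P : Subgroup F).equivMapOfInjective _ F.subtype_injective).toEquiv]
    obtain ⟨n, hn⟩ := IsPGroup.iff_card.1 P.2
    have hn1 : n ≤ 1 := by
      by_contra hn1
      refine hp2 ((pow_dvd_pow p (show 2 ≤ n by omega)).trans ?_)
      rw [← hn]
      exact (Subgroup.card_subgroup_dvd_card _).trans (Subgroup.card_subgroup_dvd_card F)
    have hd : p ∣ Nat.card (P : Subgroup F) := P.dvd_card_of_dvd_card (by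
      rw [← hx]; exact Subgroup.orderOf_dvd_natCard F hxF)
    rw [hn] at hd
    have hn0 : n ≠ 0 := fun e => hp.ne_one (Nat.dvd_one.1 (by simpa [e] using hd))
    rw [hn, show n = 1 by omega, pow_one]
  haveI : IsCyclic A := isCyclic_of_prime_card hAc
  refine not_mem_degreePrimes_of_abelian A
    (fun a ha b hb => congrArg Subtype.val ((IsCyclic.isMulCommutative (α := A)).is_comm.comm ⟨a, ha⟩ ⟨b, hb⟩ :))
    (fun hd => hp2 ?_) hpd
  rw [← A.card_mul_index, hAc, pow_two]
  exact Nat.mul_dvd_mul_left _ hd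

end Cfsg.Agent.FGS75.SmallSimple
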