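import Cfsg.Agent.FGS75.SmallSimple.Coprime
import Mathlib.GroupTheory.Subgroup.Simple
import Mathlib.GroupTheory.Sylow

/-!
# Coprime automorphisms of small simple groups

A sufficient numerical condition for a simple normal subgroup to have no coprime automorphism of prime order.
-/

set_option autoImplicit false
set_option linter.style.haveILetI false

namespace Cfsg.Agent.FGS75.SmallSimple

open Subgroup

variable {H : Type*} [Group H] [Finite H]

/-- An element of prime order `r` coprime to a simple normal subgroup centralizes it, if the Sylow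
`p`-subgroups are of prime order and the numbers of fixed ones are forced to be all or one. -/
theorem le_centralizer_of_numbers (T : Subgroup H) [T.Normal] [IsSimpleGroup T] {r : ℕ} (hr : r.Prime)
    {x : H} (hx : orderOf x = r) (hrT : ¬ r ∣ Nat.card T) {p : ℕ} (hp : p.Prime)
    (hp1 : p ∣ Nat.card T) (hp2 : ¬ p ^ 2 ∣ Nat.card T) (hne : Nat.card T ≠ p) (hrp : ¬ r ∣ p - 1)
    {q a : ℕ} (hq : q.Prime) (hqa : q ^ a ∣ Nat.card T) (hqa' : ¬ q ^ (a + 1) ∣ Nat.card T)
    (hrq : ∀ j, 1 ≤ j → j ≤ a → ¬ r ∣ q ^ j - 1)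
    (hnum : ∀ n, n ∣ Nat.card T → n * p ∣ Nat.card T → n % p = 1 → n ≠ 1 → ∀ f ≤ n,
      f % r = n % r → f % p = 1 → f = n ∨ (f = 1 ∧ ¬ q ^ a ∣ Nat.card T / n)) :
    T ≤ centralizer ({x} : Set H) := by
  classical
  by_contra hnot
  haveI := Fact.mk hr
  haveI := Fact.mk hp
  haveI := Fact.mk hq
  let ψ : zpowers x →* MulAut T := (MulAut.conjNormal (H := T)).comp (zpowers x).subtype
  letI : MulDistribMulAction (zpowers x) T := MulDistribMulAction.compHom T ψ
  have hψ : ∀ (g : zpowers x) (t : T), ((ψ g t : T) : H) = (g : H) * t * (g : H)⁻¹ := fun g t =>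
    MulAut.conjNormal_apply (g : H) t
  set g0 : zpowers x := ⟨x, mem_zpowers x⟩ with hg0
  set C : Subgroup T := (centralizer ({x} : Set H)).subgroupOf T with hC
  have hCtop : C ≠ ⊤ := fun h => hnot (Subgroup.subgroupOf_eq_top.1 h)
  -- fixed Sylow subgroups are centralized
  have hfix : ∀ {s k : ℕ} [Fact s.Prime] (R : Sylow s T), Nat.card (R : Subgroup T) = s ^ k → s ≠ r →
      (∀ j, 1 ≤ j → j ≤ k → ¬ r ∣ s ^ j - 1) → (∀ g : zpowers x, g • R = R) → (R : Subgroup T) ≤ C := by
    intro s k _ R hR hsr hsj hfixed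
    set U := (R : Subgroup T).map T.subtype
    have hU : x ∈ normalizer (U : Set H) := by
      have key : ∀ g : zpowers x, ∀ u ∈ U, (g : H) * u * (g : H)⁻¹ ∈ U := by
        rintro g _ ⟨y, hy, rfl⟩
        have hm : ψ g y ∈ ((g • R : Sylow s T) : Subgroup T) := ⟨y, hy, rfl⟩
        rw [hfixed g] at hm
        exact ⟨_, hm, hψ g y⟩
      rw [Subgroup.mem_normalizer_iff]
      refine fun u => ⟨key g0 u, fun hu => ?_⟩
      simpa [hg0, mul_assoc] using key g0⁻¹ _ hu
    have hle := le_centralizer_of_no_dvd hx hU (Fact.out : s.Prime) hsr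
      (by rw [← Nat.card_congr ((R : Subgroup T).equivMapOfInjective _ T.subtype_injective).toEquiv, hR]) hsj
    intro y hy
    exact Subgroup.mem_subgroupOf.2 (hle ⟨y, hy, rfl⟩)
  have hcent_fix : ∀ {s : ℕ} (R : Sylow s T), (R : Subgroup T) ≤ C → ∀ g : zpowers x, g • R = R := by
    intro s R hR g
    have hid : ∀ y ∈ (R : Subgroup T), ψ g y = y := by
      intro y hy
      refine Subtype.ext ?_
      rw [hψ]
      obtain ⟨i, hi⟩ := mem_zpowers_iff.1 g.2
      rw [← hi, ((show Commute (y : H) x from
        mem_centralizer_singleton_iff.1 (Subgroup.mem_subgroupOf.1 (hR hy))).symm.zpow_left i).eq,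
        mul_inv_cancel_right]
    refine Sylow.ext (le_antisymm ?_ fun y hy => ⟨y, hy, hid y hy⟩)
    rintro _ ⟨y, hy, rfl⟩
    exact (hid y hy).symm ▸ hy
  have hzr : IsPGroup r (zpowers x) := IsPGroup.of_card (n := 1) (by rw [Nat.card_zpowers, hx, pow_one])
  have hPcard : ∀ R : Sylow p T, Nat.card (R : Subgroup T) = p := by
    intro R
    obtain ⟨k, hk⟩ := IsPGroup.iff_card.1 R.2
    have hk1 : k ≤ 1 := by
      by_contra hk1
      exact hp2 ((pow_dvd_pow p (show 2 ≤ k by omega)).trans (hk ▸ Subgroup.card_subgroup_dvd_card _))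
    have hd : p ∣ Nat.card (R : Subgroup T) := R.dvd_card_of_dvd_card hp1
    rw [hk] at hd
    have hk0 : k ≠ 0 := fun e => hp.ne_one (Nat.dvd_one.1 (by simpa [e] using hd))
    rw [hk, show k = 1 by omega, pow_one]
  have hpr : p ≠ r := fun e => hrT (e ▸ hp1)
  obtain ⟨P₀⟩ := (inferInstance : Nonempty (Sylow p T))
  set n := Nat.card (Sylow p T) with hn
  have hnp : n * p ∣ Nat.card T := by
    have hd := Nat.mul_dvd_mul (P₀.card_dvd_index) (dvd_refl p)
    refine hd.trans (dvd_of_eq ?_)
    have := (P₀ : Subgroup T).index_mul_card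
    rw [hPcard P₀] at this
    exact this
  have hnT : n ∣ Nat.card T := (Dvd.intro _ rfl).trans hnp
  have hn1 : n % p = 1 := by
    have h := card_sylow_modEq_one p T
    rw [← hn] at h
    rw [h, Nat.mod_eq_of_lt hp.one_lt]
  have hne1 : n ≠ 1 := by
    intro h1
    haveI : Subsingleton (Sylow p T) := (Nat.card_eq_one_iff_unique.1 (hn.symm.trans h1)).1
    rcases P₀.normal_of_subsingleton.eq_bot_or_eq_top with hb | ht
    · have := hPcard P₀; rw [hb, Subgroup.card_bot] at this; exact hp.ne_one this.symm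
    · have := hPcard P₀; rw [ht, Subgroup.card_top] at this; exact hne this
  set f := Nat.card (MulAction.fixedPoints (zpowers x) (Sylow p T)) with hf
  have hfn : f ≤ n := Nat.card_le_card_of_injective _ Subtype.val_injective
  have hfr : f % r = n % r := (hzr.card_modEq_card_fixedPoints (Sylow p T)).symm
  have hf0 : 0 < f := by
    by_contra h0
    have : f = 0 := by omega
    rw [this, Nat.zero_mod] at hfr
    exact hrT ((Nat.dvd_of_mod_eq_zero hfr.symm).trans hnT)
  have hcent : ∀ R : MulAction.fixedPoints (zpowers x) (Sylow p T), ((R : Sylow p T) : Subgroup T) ≤ C :=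
    fun R => hfix (k := 1) (R : Sylow p T) (by rw [hPcard, pow_one]) hpr (fun j h1 h2 => by
      rw [show j = 1 by omega, pow_one]; exact hrp) R.2
  obtain ⟨⟨R₀⟩⟩ := Nat.card_pos_iff.1 hf0
  have hpC : p ∣ Nat.card C := hPcard (R₀ : Sylow p T) ▸ Subgroup.card_dvd_of_le (hcent R₀)
  have hQcard : ∀ Q : Sylow p C, Nat.card (Q : Subgroup C) = p := by
    intro Q
    obtain ⟨k, hk⟩ := IsPGroup.iff_card.1 Q.2
    have hk1 : k ≤ 1 := by
      by_contra hk1
      exact hp2 ((pow_dvd_pow p (show 2 ≤ k by omega)).trans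
        ((hk ▸ Subgroup.card_subgroup_dvd_card _).trans (Subgroup.card_subgroup_dvd_card C)))
    have hd : p ∣ Nat.card (Q : Subgroup C) := Q.dvd_card_of_dvd_card hpC
    rw [hk] at hd
    have hk0 : k ≠ 0 := fun e => hp.ne_one (Nat.dvd_one.1 (by simpa [e] using hd))
    rw [hk, show k = 1 by omega, pow_one]
  have hfC : f = Nat.card (Sylow p C) := by
    rw [hf]
    refine Nat.card_congr (Equiv.ofBijective (fun R => (R : Sylow p T).subtype (hcent R)) ⟨?_, ?_⟩)
    · intro R R' h
      refine Subtype.ext (Sylow.ext ?_)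
      have := congrArg (fun S : Sylow p C => (S : Subgroup C).map C.subtype) h
      simpa [Sylow.coe_subtype, Subgroup.subgroupOf_map_subtype, inf_eq_left.2 (hcent R),
        inf_eq_left.2 (hcent R')] using this
    · intro Q
      obtain ⟨R, hR⟩ := (Q.2.map C.subtype).exists_le_sylow
      have hRe : (Q : Subgroup C).map C.subtype = (R : Subgroup T) := by
        refine Subgroup.eq_of_le_of_card_ge hR ?_
        rw [← Nat.card_congr ((Q : Subgroup C).equivMapOfInjective _ C.subtype_injective).toEquiv,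
          hPcard, hQcard]
      have hRC : (R : Subgroup T) ≤ C := hRe ▸ Subgroup.map_subtype_le _
      refine ⟨⟨R, hcent_fix R hRC⟩, Sylow.ext ?_⟩
      rw [Sylow.coe_subtype, show ((⟨R, hcent_fix R hRC⟩ : MulAction.fixedPoints (zpowers x)
        (Sylow p T)) : Sylow p T) = R from rfl, ← hRe, Subgroup.subgroupOf,
        Subgroup.comap_map_eq_self_of_injective C.subtype_injective]
  have hf1 : f % p = 1 := by
    have h := card_sylow_modEq_one p C
    rw [← hfC] at h
    rw [h, Nat.mod_eq_of_lt hp.one_lt]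
  rcases hnum n hnT hnp hn1 hne1 f hfn hfr hf1 with hall | ⟨hone, hqN⟩
  · -- every Sylow subgroup is centralized
    have hsur : ∀ R : Sylow p T, (R : Subgroup T) ≤ C := by
      intro R
      obtain ⟨R', rfl⟩ := (Subtype.val_injective.bijective_of_nat_card_le
        (f := (Subtype.val : MulAction.fixedPoints (zpowers x) (Sylow p T) → Sylow p T))
        (hn.symm.le.trans hall.ge)).2 R
      exact hcent R'
    obtain ⟨y, hy⟩ := exists_prime_orderOf_dvd_card' (G := T) p hp1
    have hle : Subgroup.normalClosure ({y} : Set T) ≤ C := by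
      refine (Subgroup.closure_le C).2 fun z hz => ?_
      obtain ⟨w, hw, hc⟩ := Group.mem_conjugatesOfSet_iff.1 hz
      rw [Set.mem_singleton_iff] at hw
      subst hw
      obtain ⟨c, rfl⟩ := isConj_iff.1 hc
      have ho : orderOf (c * w * c⁻¹) = p := by
        rw [show c * w * c⁻¹ = MulAut.conj c w from rfl, MulEquiv.orderOf_eq, hy]
      obtain ⟨R, hR⟩ := (IsPGroup.of_card (p := p) (n := 1) (G := zpowers (c * w * c⁻¹))
        (by rw [Nat.card_zpowers, ho, pow_one])).exists_le_sylow
      exact hsur R (hR (mem_zpowers _))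
    rcases (Subgroup.normalClosure_normal (s := ({y} : Set T))).eq_bot_or_eq_top with hb | ht
    · have hy1 : y ∈ Subgroup.normalClosure ({y} : Set T) := Subgroup.subset_normalClosure rfl
      rw [hb, mem_bot] at hy1
      rw [hy1, orderOf_one] at hy
      exact hp.ne_one hy.symm
    · exact hCtop (top_le_iff.1 (ht ▸ hle))
  · -- a unique one is centralized
    haveI hsub : Subsingleton (MulAction.fixedPoints (zpowers x) (Sylow p T)) :=
      (Nat.card_eq_one_iff_unique.1 (hf.symm.trans hone)).1
    have hCN : C ≤ normalizer (((R₀ : Sylow p T) : Subgroup T) : Set T) := by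
      intro c hc
      refine Sylow.smul_eq_iff_mem_normalizer.1 ?_
      have hfixc : (c • (R₀ : Sylow p T)) ∈ MulAction.fixedPoints (zpowers x) (Sylow p T) := by
        refine hcent_fix _ fun z hz => ?_
        obtain ⟨w, hw, rfl⟩ := hz
        exact mul_mem (mul_mem hc (hcent R₀ hw)) (inv_mem hc)
      exact congrArg Subtype.val (Subsingleton.elim (⟨_, hfixc⟩ : MulAction.fixedPoints (zpowers x)
        (Sylow p T)) R₀)
    have hN : Nat.card (normalizer (((R₀ : Sylow p T) : Subgroup T) : Set T)) = Nat.card T / n := by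
      rw [← (normalizer (((R₀ : Sylow p T) : Subgroup T) : Set T)).card_mul_index, hn,
        show Nat.card (Sylow p T) = (normalizer (((R₀ : Sylow p T) : Subgroup T) : Set T)).index from
          (R₀ : Sylow p T).card_eq_index_normalizer, Nat.mul_div_cancel _ (Nat.pos_of_ne_zero
          Subgroup.index_ne_zero_of_finite)]
    obtain ⟨Q₀⟩ := (inferInstance : Nonempty (Sylow q T))
    obtain ⟨Q, hQ⟩ := hzr.nonempty_fixed_point_of_prime_not_dvd_card (Sylow q T)
      fun hd => hrT ((hd.trans Q₀.card_dvd_index).trans (Subgroup.index_dvd_card _))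
    have hQc : Nat.card (Q : Subgroup T) = q ^ a := by
      obtain ⟨k, hk⟩ := IsPGroup.iff_card.1 Q.2
      have h1 : k ≤ a := by
        by_contra h1
        exact hqa' ((pow_dvd_pow q (show a + 1 ≤ k by omega)).trans (hk ▸ Subgroup.card_subgroup_dvd_card _))
      have h2 : q ^ a ∣ Nat.card (Q : Subgroup T) := Q.pow_dvd_card_of_pow_dvd_card hqa
      rw [hk] at h2
      have := (Nat.pow_dvd_pow_iff_le_right hq.one_lt).1 h2
      rw [hk, show k = a by omega]
    have hQC : (Q : Subgroup T) ≤ C := by
      by_cases hqr : q = r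
      · have : a = 0 := by
          by_contra ha
          exact hrT (hqr ▸ (dvd_pow_self q ha).trans hqa)
        rw [this, pow_zero] at hQc
        rw [Subgroup.card_eq_one.1 hQc]
        exact bot_le
      · exact hfix Q hQc hqr hrq hQ
    refine hqN ?_
    rw [← hN, ← hQc]
    exact Subgroup.card_dvd_of_le (hQC.trans hCN)

end Cfsg.Agent.FGS75.SmallSimple
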