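import Cfsg.Agent.SmallGroups.ThreePrimes
import Cfsg.Agent.SmallGroups.Involution

/-!
# No simple group of order 1512

The six non-trivial constituents of the principal series at the prime seven have degrees `6, 8, 8, 8, 8, 27`
(or `9, 8, 27` with a double coefficient); an involution of `N(P)` commutes with an element of order three.
-/

set_option autoImplicit false

namespace Cfsg.Agent.FGS75.SmallSimple

open Cfsg Cfsg.Agent Subgroup

/-- The possible pairs of degree and coefficient. -/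
def keys : List (ℕ × ℤ) := [(6, -1), (8, 1), (27, -1), (36, 1), (2, 2), (9, 2), (12, -2)]

theorem mem_keys_check : ∀ f : ℕ, f < 39 → ∀ a ∈ [(1 : ℤ), -1, 2, -2],
    (decide (1 < f) && 1512 % f == 0 && ((f : ℤ) - a) % 7 == 0) = true →
      keys.contains ((f, a) : ℕ × ℤ) = true := by decide +kernel

theorem mem_keys (f : ℕ) (hf : f < 39) (h1 : 1 < f) (h2 : 1512 % f = 0) (a : ℤ)
    (ha : a ∈ [(1 : ℤ), -1, 2, -2]) (h3 : ((f : ℤ) - a) % 7 = 0) : ((f, a) : ℕ × ℤ) ∈ keys :=
  List.contains_iff_mem.1 (mem_keys_check f hf a ha (by simp [h1, h2, h3]))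

/-- The members of `V` with a given key. -/
def part (V : List (ℕ × ℤ × ℤ)) (k : ℕ × ℤ) : List (ℕ × ℤ × ℤ) :=
  V.filter fun z => decide ((z.1, z.2.1) = k)

theorem mem_part {V : List (ℕ × ℤ × ℤ)} {k : ℕ × ℤ} {z : ℕ × ℤ × ℤ} :
    z ∈ part V k ↔ z ∈ V ∧ (z.1, z.2.1) = k := by simp [part]

theorem sum_parts {R : Type*} [AddCommMonoid R] (F : ℕ × ℤ × ℤ → R) :
    ∀ V : List (ℕ × ℤ × ℤ), (∀ z ∈ V, (z.1, z.2.1) ∈ keys) →
      (V.map F).sum = (keys.map fun k => ((part V k).map F).sum).sum := by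
  intro V
  induction V with
  | nil => intro _; simp [part, keys]
  | cons z V ih =>
    intro h
    have hz := h z List.mem_cons_self
    rw [List.map_cons, List.sum_cons, ih fun w hw => h w (List.mem_cons_of_mem _ hw)]
    simp only [keys, List.mem_cons, List.not_mem_nil, or_false, Prod.mk.injEq] at hz
    rcases hz with ⟨e, e'⟩ | ⟨e, e'⟩ | ⟨e, e'⟩ | ⟨e, e'⟩ | ⟨e, e'⟩ | ⟨e, e'⟩ | ⟨e, e'⟩ <;>
      simp [part, keys, e, e'] <;> abel

/-- Sum of the values. -/
def vsum (l : List (ℕ × ℤ × ℤ)) : ℤ := (l.map fun z => z.2.2).sum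

/-- Sum of the squares of the values. -/
def vsq (l : List (ℕ × ℤ × ℤ)) : ℤ := (l.map fun z => z.2.2 ^ 2).sum

theorem vsq_nonneg (l : List (ℕ × ℤ × ℤ)) : 0 ≤ vsq l := by
  induction l with
  | nil => simp [vsq]
  | cons z l ih => simp only [vsq, List.map_cons, List.sum_cons] at ih ⊢; positivity

theorem vsum_eq_zero {l : List (ℕ × ℤ × ℤ)} : vsq l = 0 → vsum l = 0 := by
  induction l with
  | nil => simp [vsum]
  | cons z l ih =>
    intro h
    have h1 := vsq_nonneg l
    simp only [vsq, vsum, List.map_cons, List.sum_cons] at h ih h1 ⊢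
    have h2 : z.2.2 ^ 2 = 0 := le_antisymm (by linarith) (sq_nonneg _)
    rw [h2, zero_add] at h
    rw [ih h, pow_eq_zero_iff two_ne_zero |>.1 h2, add_zero]

theorem part_sums (V : List (ℕ × ℤ × ℤ)) (k : ℕ × ℤ) :
    ((part V k).map fun z => z.2.1 * (z.1 : ℤ)).sum = (part V k).length * (k.2 * (k.1 : ℤ)) ∧
    ((part V k).map fun z => z.2.1 ^ 2).sum = (part V k).length * k.2 ^ 2 ∧
    ((part V k).map fun z => z.1 ^ 2).sum = (part V k).length * k.1 ^ 2 ∧
    ((part V k).map fun z => z.2.1 * z.2.2).sum = k.2 * vsum (part V k) ∧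
    ((part V k).map fun z => (z.2.1 : ℚ) * ((z.2.2 : ℚ) ^ 2 / z.1)).sum =
      (k.2 : ℚ) / k.1 * (vsq (part V k) : ℚ) := by
  have h : ∀ z ∈ part V k, (z.1, z.2.1) = k := fun z hz => (mem_part.1 hz).2
  revert h
  generalize part V k = l
  induction l with
  | nil => simp [vsum, vsq]
  | cons z l ih =>
    intro h
    obtain ⟨h1, h2, h3, h4, h5⟩ := ih fun w hw => h w (List.mem_cons_of_mem _ hw)
    have hz := h z List.mem_cons_self
    subst hz
    simp only [List.map_cons, List.sum_cons, List.length_cons, vsum, vsq, Int.cast_add, Int.cast_pow]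
      at h4 h5 ⊢
    rw [h1, h2, h3, h4, h5]
    push_cast
    refine ⟨by ring, by ring, by ring, by ring, by ring⟩

/-- The check in the pattern `6, 8, 8, 8, 8, 27`. -/
def okA (i l c : ℕ) : Bool :=
  let u : ℤ := 2 * i - 6
  let z : ℤ := 2 * l - 27
  let t : ℤ := 36 * (c : ℤ) ^ 2 - 216 + 36 * u ^ 2 + 8 * z ^ 2
  !(decide (t % 27 = 0) && decide (0 ≤ t) && decide (27 * (1 + u ^ 2 + z ^ 2) + t ≤ 27 * (6 * (c : ℤ)))) ||
    (decide (t = 0) && decide (u + z ≠ 1))

theorem checkA : ∀ i < 6, ∀ l < 27, ∀ c ≤ 5, okA i l c = true := by decide +kernel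

/-- The check in the pattern `9, 8, 27`. -/
def okB (i w c : ℕ) : Bool :=
  let u : ℤ := 2 * i - 9
  let v : ℤ := 2 * w - 8
  let z : ℤ := 2 * (2 * i + w + 1) - 27
  !(decide (216 + 48 * u ^ 2 + 27 * v ^ 2 - 8 * z ^ 2 = 36 * (c : ℤ) ^ 2) &&
    decide (1 + u ^ 2 + v ^ 2 + z ^ 2 ≤ 6 * (c : ℤ)))

theorem checkB : ∀ i < 9, ∀ w < 8, ∀ c ≤ 9, okB i w c = true := by decide +kernel

/-- No finite simple group has order 1512 = 2^3 * 3^3 * 7. -/
theorem not_1512 {G : Type*} [Group G] [Finite G] [IsSimpleGroup G] : Nat.card G ≠ 1512 := by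
  intro hc
  let := Fintype.ofFinite G
  have := Fact.mk (by norm_num : Nat.Prime 7)
  have hG : ¬ IsMulCommutative G := SmallGroups.not_isMulCommutative (by rw [hc]; norm_num)
  obtain ⟨n, k, -, hn, hn1, hk, hk1, hnk, hP, hC, hN⟩ := SmallGroups.exists_threePrime_data
    hG Nat.prime_two Nat.prime_three (r := 7) (a := 3) (b := 3)
    (by norm_num) (by norm_num) (by norm_num) (by rw [hc]; norm_num)
  obtain rfl : k = 6 := by
    have hk6 : k ≤ 6 := Nat.le_of_dvd (by norm_num) hk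
    interval_cases k <;> omega
  obtain ⟨P⟩ := (inferInstance : Nonempty (Sylow 7 G))
  obtain ⟨L, hL, hnm, hs, hsq, hinv⟩ :=
    SmallGroups.Exceptional.exists_involution_data_one (P : Subgroup G) (p := 7) (e := 6)
      (by norm_num) (by norm_num) (hP P) (hC P) (hN P) hG (by norm_num)
  rw [hc] at hsq hinv
  simp only [hc, Nat.cast_ofNat] at hL
  simp only [Nat.cast_ofNat] at hnm
  have hkeys : ∀ x ∈ L, x ∈ keys := by
    intro x hx
    obtain ⟨h1, h2, h3, h4⟩ := hL x hx
    have hle : x.1 ^ 2 ≤ (L.map fun x => x.1 ^ 2).sum :=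
      List.le_sum_of_mem (List.mem_map_of_mem hx)
    have hle2 : x.2 ^ 2 ≤ 6 := hnm ▸ List.single_le_sum (fun y hy => by
      obtain ⟨z, -, rfl⟩ := List.mem_map.mp hy; exact sq_nonneg _) _
      (List.mem_map_of_mem hx)
    have hlt : x.1 < 39 := by nlinarith
    have ha : x.2 ∈ [(1 : ℤ), -1, 2, -2] := by
      have h1 : x.2 ≤ 2 := by nlinarith
      have h2 : -2 ≤ x.2 := by nlinarith
      simp only [List.mem_cons, List.not_mem_nil, or_false]
      omega
    exact mem_keys x.1 hlt h1 (Nat.mod_eq_zero_of_dvd h2) x.2 ha (Int.emod_eq_zero_of_dvd h3)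
  -- an involution of `N(P)` commuting with an element of order three
  set N := normalizer ((P : Subgroup G) : Set G)
  obtain ⟨g, hg, hgN, hg6⟩ : ∃ g : G, orderOf g = 2 ∧ g ∈ N ∧
      6 ∣ Nat.card ↥(centralizer ({g} : Set G)) := by
    classical
    have hker : (normalizerMonoidHom (P : Subgroup G)).ker =
        (centralizer ((P : Subgroup G) : Set G)).subgroupOf N := normalizerMonoidHom_ker _
    have hrange : Nat.card (normalizerMonoidHom (P : Subgroup G)).range = 6 := by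
      rw [← Subgroup.index_ker, hker]
      have h := Subgroup.card_mul_index ((centralizer ((P : Subgroup G) : Set G)).subgroupOf N)
      rw [Nat.card_congr (Subgroup.subgroupOfEquivOfLe (centralizer_le_normalizer _)).toEquiv,
        hC P, hN P] at h
      omega
    have hPcyc : IsCyclic ↥(P : Subgroup G) := isCyclic_of_prime_card (p := 7) (hP P)
    have hrcyc : IsCyclic (normalizerMonoidHom (P : Subgroup G)).range := by
      have : IsCyclic (MulAut ↥(P : Subgroup G)) := by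
        rw [(IsCyclic.mulAutMulEquiv ↥(P : Subgroup G)).isCyclic, hP P]
        haveI : Fact (Nat.Prime 7) := ⟨by norm_num⟩
        infer_instance
      infer_instance
    obtain ⟨⟨m, y, rfl⟩, hm⟩ := IsCyclic.exists_ofOrder_eq_natCard
      (α := (normalizerMonoidHom (P : Subgroup G)).range)
    rw [hrange] at hm
    have hdy : 6 ∣ orderOf y := by
      rw [← hm, ← Subgroup.orderOf_coe]
      exact orderOf_map_dvd _ y
    have hy0 : orderOf y ≠ 0 := (orderOf_pos y).ne'
    have hy6 : orderOf (y ^ (orderOf y / 6)) = 6 := orderOf_pow_orderOf_div hy0 hdy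
    set z : ↥N := y ^ (orderOf y / 6)
    refine ⟨((z ^ 3 : ↥N) : G), ?_, (z ^ 3 : ↥N).2, ?_⟩
    · rw [Subgroup.orderOf_coe, orderOf_pow, hy6]; rfl
    · rw [← hy6, ← Subgroup.orderOf_coe]
      have hmem : (z : G) ∈ centralizer ({((z ^ 3 : ↥N) : G)} : Set G) := by
        rw [mem_centralizer_singleton_iff, SubmonoidClass.coe_pow]
        exact ((Commute.refl (z : G)).pow_right 3).eq
      rw [← Subgroup.orderOf_mk (z : G) hmem]
      exact orderOf_dvd_natCard _
  obtain ⟨V, hV, hVv, hlin, hq, hquad⟩ := hinv g hg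
  obtain ⟨-, hgn⟩ | hquad := hquad
  · exact hgn hgN
  subst hV
  simp only [List.forall_mem_map] at hkeys
  simp only [List.map_map] at hnm hs hsq
  have e1 := sum_parts (fun z => z.2.1 * (z.1 : ℤ)) V hkeys
  have e2 := sum_parts (fun z => z.2.1 ^ 2) V hkeys
  have e3 := sum_parts (fun z => z.1 ^ 2) V hkeys
  have e4 := sum_parts (fun z => z.2.1 * z.2.2) V hkeys
  have e5 := sum_parts (fun z => z.2.2 ^ 2) V hkeys
  have e6 := sum_parts (fun z => (z.2.1 : ℚ) * ((z.2.2 : ℚ) ^ 2 / z.1)) V hkeys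
  simp only [keys, List.map_cons, List.map_nil, List.sum_cons, List.sum_nil, add_zero,
    (part_sums V _).1, (part_sums V _).2.1, (part_sums V _).2.2.1, (part_sums V _).2.2.2.1,
    (part_sums V _).2.2.2.2] at e1 e2 e3 e4 e6
  simp only [keys, List.map_cons, List.map_nil, List.sum_cons, List.sum_nil, add_zero] at e5
  simp only [Function.comp_def] at hnm hs hsq
  rw [e2] at hnm
  rw [e1] at hs
  rw [e3] at hsq
  rw [e4] at hlin
  rw [e5] at hq
  try simp only at hquad
  rw [e6] at hquad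
  simp only [show ∀ l : List (ℕ × ℤ × ℤ), (l.map fun z => z.2.2 ^ 2).sum = vsq l from fun _ => rfl] at hq
  have hnil : ∀ k, (part V k).length = 0 → vsum (part V k) = 0 ∧ vsq (part V k) = 0 := fun k h => by
    rw [List.length_eq_zero_iff.1 h]; exact ⟨rfl, rfl⟩
  have hone : ∀ k, (part V k).length = 1 → ∃ i : ℕ, i < k.1 ∧
      vsum (part V k) = 2 * (i : ℤ) - k.1 ∧ vsq (part V k) = (2 * (i : ℤ) - k.1) ^ 2 := fun k h => by
    obtain ⟨z, hz⟩ := List.length_eq_one_iff.1 h
    have hzm : z ∈ part V k := by rw [hz]; simp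
    obtain ⟨hzV, hzk⟩ := mem_part.1 hzm
    obtain ⟨i, hi, hiv⟩ := hVv z hzV
    subst hzk
    exact ⟨i, hi, by rw [hz]; simp [vsum, hiv], by rw [hz]; simp [vsq, hiv]⟩
  obtain ⟨c, hc6⟩ := hg6
  have hc0 : 0 < c := by
    rcases Nat.eq_zero_or_pos c with rfl | h
    · exact absurd (hc6.trans (mul_zero 6)) Nat.card_pos.ne'
    · exact h
  have hcd : c ∣ 252 := by
    have h := Subgroup.card_subgroup_dvd_card (centralizer ({g} : Set G))
    rw [hc6, hc] at h
    exact Nat.dvd_of_mul_dvd_mul_left (by norm_num : 0 < 6) (by simpa using h)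
  rw [hc6] at hquad hq
  push_cast at hquad hq
  norm_num at hnm hs hsq
  rcases (show ((part V (6, -1)).length = 1 ∧ (part V (8, 1)).length = 4 ∧ (part V (27, -1)).length = 1 ∧
      (part V (36, 1)).length = 0 ∧ (part V (2, 2)).length = 0 ∧ (part V (9, 2)).length = 0 ∧
      (part V (12, -2)).length = 0) ∨
      ((part V (6, -1)).length = 0 ∧ (part V (8, 1)).length = 1 ∧ (part V (27, -1)).length = 1 ∧
      (part V (36, 1)).length = 0 ∧ (part V (2, 2)).length = 0 ∧ (part V (9, 2)).length = 1 ∧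
      (part V (12, -2)).length = 0) by
      obtain ⟨a1, ha1⟩ : ∃ a, (part V (6, -1)).length = a := ⟨_, rfl⟩
      obtain ⟨a2, ha2⟩ : ∃ a, (part V (8, 1)).length = a := ⟨_, rfl⟩
      obtain ⟨a3, ha3⟩ : ∃ a, (part V (27, -1)).length = a := ⟨_, rfl⟩
      obtain ⟨a4, ha4⟩ : ∃ a, (part V (36, 1)).length = a := ⟨_, rfl⟩
      obtain ⟨a5, ha5⟩ : ∃ a, (part V (2, 2)).length = a := ⟨_, rfl⟩
      obtain ⟨a6, ha6⟩ : ∃ a, (part V (9, 2)).length = a := ⟨_, rfl⟩
      obtain ⟨a7, ha7⟩ : ∃ a, (part V (12, -2)).length = a := ⟨_, rfl⟩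
      rw [ha1, ha2, ha3, ha4, ha5, ha6, ha7] at hnm hs hsq ⊢
      have : a3 ≤ 2 := by omega
      have : a4 ≤ 1 := by omega
      have : a5 ≤ 1 := by omega
      have : a6 ≤ 1 := by omega
      have : a7 ≤ 1 := by omega
      interval_cases a3 <;> interval_cases a4 <;> interval_cases a5 <;> interval_cases a6 <;>
        interval_cases a7 <;> omega) with
    ⟨h6, h8, h27, h36, h2, h9, h12⟩ | ⟨h6, h8, h27, h36, h2, h9, h12⟩
  · obtain ⟨i, hi, hu1, hu2⟩ := hone _ h6
    obtain ⟨l, hl, hz1, hz2⟩ := hone _ h27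
    have hW := vsq_nonneg (part V (8, 1))
    rw [hu1, hz1, (hnil _ h36).1, (hnil _ h2).1, (hnil _ h9).1, (hnil _ h12).1] at hlin
    rw [hu2, hz2, (hnil _ h36).2, (hnil _ h2).2, (hnil _ h9).2, (hnil _ h12).2] at hq hquad
    norm_num at hlin hq hquad
    have key : 216 - 36 * (2 * (i : ℤ) - 6) ^ 2 + 27 * vsq (part V (8, 1)) -
        8 * (2 * (l : ℤ) - 27) ^ 2 = 36 * (c : ℤ) ^ 2 := by
      apply Int.cast_injective (α := ℚ)
      push_cast
      linarith
    have hc5 : c ≤ 5 := by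
      by_contra h
      have : (6 : ℤ) ≤ c := by omega
      nlinarith
    have hchk := checkA i hi l hl c hc5
    have ht : 36 * (c : ℤ) ^ 2 - 216 + 36 * (2 * (i : ℤ) - 6) ^ 2 + 8 * (2 * (l : ℤ) - 27) ^ 2 =
        27 * vsq (part V (8, 1)) := by linarith
    simp only [okA, Bool.or_eq_true, Bool.not_eq_true', Bool.and_eq_false_iff, Bool.and_eq_true,
      decide_eq_true_eq, decide_eq_false_iff_not] at hchk
    rcases hchk with ((h | h) | h) | ⟨h, h'⟩
    · omega
    · omega
    · exact h (by rw [ht]; linarith)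
    · have hW0 : vsq (part V (8, 1)) = 0 := by omega
      have hS := vsum_eq_zero hW0
      omega
  · obtain ⟨w, hw, hw1, hw2⟩ := hone _ h8
    obtain ⟨l, hl, hz1, hz2⟩ := hone _ h27
    obtain ⟨i, hi, hu1, hu2⟩ := hone _ h9
    rw [hu1, hw1, hz1, (hnil _ h36).1, (hnil _ h2).1, (hnil _ h6).1, (hnil _ h12).1] at hlin
    rw [hu2, hw2, hz2, (hnil _ h36).2, (hnil _ h2).2, (hnil _ h6).2, (hnil _ h12).2] at hq hquad
    norm_num at hlin hq hquad
    have key : 216 + 48 * (2 * (i : ℤ) - 9) ^ 2 + 27 * (2 * (w : ℤ) - 8) ^ 2 -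
        8 * (2 * (l : ℤ) - 27) ^ 2 = 36 * (c : ℤ) ^ 2 := by
      apply Int.cast_injective (α := ℚ)
      push_cast
      linarith
    have hc9 : c ≤ 9 := by
      by_contra h
      have : (10 : ℤ) ≤ c := by omega
      nlinarith
    obtain rfl : l = 2 * i + w + 1 := by omega
    have hchk := checkB i hi w hw c hc9
    push_cast at key hq
    simp only [okB, Bool.not_eq_true', Bool.and_eq_false_iff, decide_eq_false_iff_not] at hchk
    rcases hchk with h | h
    · exact h (by linarith)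
    · exact h (by linarith)

end Cfsg.Agent.FGS75.SmallSimple
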