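import Cfsg.Agent.SmallGroups.ThreePrimes
import Cfsg.Agent.SmallGroups.Involution

/-!
# No simple group of order 2160
-/

set_option autoImplicit false

namespace Cfsg.Agent.FGS75.SmallSimple

open Cfsg Cfsg.Agent

/-- No finite simple group has order 2160 = 2^4 * 3^3 * 5. -/
theorem not_2160 {G : Type*} [Group G] [Finite G] [IsSimpleGroup G] : Nat.card G ≠ 2160 := by
  intro hc
  let := Fintype.ofFinite G
  have := Fact.mk (by norm_num : Nat.Prime 5)
  have hG : ¬ IsMulCommutative G := SmallGroups.not_isMulCommutative (by rw [hc]; norm_num)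
  obtain ⟨n, k, -, hn, hn1, hk, hk1, hnk, hP, hC, hN⟩ := SmallGroups.exists_threePrime_data
    hG Nat.prime_two Nat.prime_three (r := 5) (a := 4) (b := 3)
    (by norm_num) (by norm_num) (by norm_num) (by rw [hc]; norm_num)
  obtain rfl : k = 2 := by
    have hk4 : k ≤ 4 := Nat.le_of_dvd (by norm_num) hk
    interval_cases k <;> omega
  obtain ⟨P⟩ := (inferInstance : Nonempty (Sylow 5 G))
  obtain ⟨ε, b, d, L, hε, ⟨hd1, hd, hdp⟩, hL, hnm, hs, hsq, hinv⟩ :=
    SmallGroups.Exceptional.exists_involution_data (P : Subgroup G) (p := 5) (e := 2) (t := 2)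
      (by norm_num) (by norm_num) (hP P) (hC P) (hN P) hG (by norm_num) (by norm_num) (by norm_num)
  norm_num at hnm hdp hs
  rw [hc] at hd hsq hinv
  simp only [hc] at hL
  have hLnn : 0 ≤ (L.map fun x => x.2 ^ 2).sum := List.sum_nonneg fun x hx => by
    obtain ⟨y, -, rfl⟩ := List.mem_map.mp hx
    exact sq_nonneg _
  have hblt : b < 2 := by nlinarith [sq_nonneg (b + ε)]
  have hbgt : -2 < b := by nlinarith [sq_nonneg (b + ε)]
  obtain ⟨hB, hd5, hLsum⟩ : (2 * b + ε = 1 ∨ 2 * b + ε = -1) ∧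
      5 ∣ (d : ℤ) + 2 * (2 * b + ε) ∧ (L.map fun x => x.2 ^ 2).sum = 1 := by
    rcases hε with rfl | rfl <;> interval_cases b <;> norm_num at hnm hdp ⊢ <;> omega
  obtain ⟨f, a, rfl, ha⟩ := SmallGroups.list_sq_sum_one (fun x hx => (hL x hx).2.2.2) hLsum
  obtain ⟨hf1, hf, hfp, -⟩ : 1 < f ∧ f ∣ 2160 ∧ (5 : ℤ) ∣ (f : ℤ) - a ∧ a ≠ 0 := hL (f, a) (by simp)
  simp only [List.map_cons, List.map_nil, List.sum_cons, List.sum_nil, add_zero] at hs hsq
  obtain ⟨g, hg, hg16⟩ := SmallGroups.exists_involution_dvd_centralizer (G := G) (a := 4)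
    (by norm_num) (by rw [hc]; norm_num)
  obtain ⟨u, V, hV, ⟨i, hi, rfl⟩, -, hlin, hq, hquad⟩ := hinv g hg
  obtain ⟨⟨f', a', v⟩, rfl, hx⟩ : ∃ x, V = [x] ∧ (x.1, x.2.1) = (f, a) := by
    rcases V with _ | ⟨x, _ | ⟨y, V⟩⟩
    · simp at hV
    · exact ⟨x, rfl, by simpa using hV⟩
    · simp at hV
  simp only [Prod.mk.injEq] at hx
  obtain ⟨rfl, rfl⟩ := hx
  simp only [List.map_cons, List.map_nil, List.sum_cons, List.sum_nil, add_zero] at hlin hquad hq
  set C := Nat.card ↥(Subgroup.centralizer ({g} : Set G))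
  obtain ⟨j, hj⟩ := hg16
  have hj0 : 0 < C := Nat.card_pos
  have hC16 : (16 : ℚ) ≤ C := by exact_mod_cast (show 16 ≤ C by omega)
  have hdlt : d < 33 := by nlinarith
  have hflt : f' < 47 := by nlinarith
  norm_num [-Nat.card_eq_fintype_card] at hlin hquad
  obtain ⟨hB1, ha1, hdf⟩ : 2 * b + ε = 1 ∧ a' = -1 ∧ (d = 3 ∧ f' = 4 ∨ d = 8 ∧ f' = 9) := by
    rcases hB with hB | hB <;> rw [hB] at hs hd5 ⊢ <;> rcases ha with rfl | rfl <;>
      interval_cases d <;> (try omega) <;> interval_cases f' <;> omega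
  have hBq : 2 * (b : ℚ) + (ε : ℚ) = 1 := by exact_mod_cast hB1
  subst ha1
  rw [hB1] at hlin
  obtain rfl : v = 1 + (2 * (i : ℤ) - d) := by linarith
  rw [hBq] at hquad
  rcases hdf with ⟨rfl, rfl⟩ | ⟨rfl, rfl⟩ <;> interval_cases i <;> norm_num at hquad <;>
    first
    | nlinarith
    | (rw [hj] at hquad
       have hN : (j : ℚ) ≤ 3 := by push_cast at hquad; nlinarith
       have : j ≤ 3 := by exact_mod_cast hN
       interval_cases j <;> norm_num at hquad)

end Cfsg.Agent.FGS75.SmallSimple
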