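import Cfsg.Agent.SmallGroups.BelowSixThousand.Sieve
import Cfsg.Agent.SmallGroups.BelowSixThousand.Special
import Cfsg.Agent.SmallGroups.BelowSixThousand.Order5400
import Cfsg.Agent.SmallGroups.KleinThreePrimes
import Cfsg.Agent.SmallGroups.ThreeTwoPowSquare
import Cfsg.Agent.S1010

/-!
# The orders between 1092 and 3640 left by the elementary tests
-/

set_option autoImplicit false
set_option linter.style.haveILetI false
set_option linter.unusedSectionVars false

namespace Cfsg.Agent.FGS75.SmallSimple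

open Subgroup
open Cfsg.Agent.SmallGroups Cfsg.Agent.SmallGroups.BelowThousand
open Cfsg.Agent.SmallGroups.BelowSixThousand

/-- Candidates for the orders. -/
def chkMid (n : ℕ) : Bool :=
  510510 ^ 12 % n == 0 && decide (3 ≤ (primes n).length) &&
    ((primes n).any fun p => (primes n).all (fun q => decide (p ≤ q)) &&
      (n % p ^ 3 == 0 || n % 12 == 0)) &&
    (n % 2 != 0 || n % 4 == 0) && n % 17 != 0 &&
    (n % 13 != 0 || decide (2197 ≤ n)) && (n % 11 != 0 || decide (1331 ≤ n))

/-- The orders needing a further argument. -/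
def leftMid : List ℕ :=
  [1176, 1500, 1512, 1620, 1680, 1764, 1800, 2160, 2352, 2400, 2520, 2700, 3360, 3528, 3600]

/-- An order is excluded or listed. -/
def sieveMid (n : ℕ) : Bool :=
  !chkMid n || cofKill n || (primes n).any (primeKill n) || leftMid.contains n

theorem sieveMid_all : ∀ i < 2548, sieveMid (1093 + i) = true := by decide +kernel

theorem card_PSL_two_eq {q : ℕ} {G : Type} [Group G] {F : Type} [Field F] [Fintype F]
    (hF : Fintype.card F = q) (e : G ≃* Matrix.ProjectiveSpecialLinearGroup (Fin 2) F) :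
    Nat.gcd 2 (q - 1) * Nat.card G = q * (q - 1) * (q + 1) := by
  rw [← hF, Nat.card_congr e.toEquiv]
  exact Linear.card_PSL_two_mul (F := F)

variable {G : Type} [Group G] [Finite G] [IsSimpleGroup G]
variable (hG : ¬ IsMulCommutative G)
include hG

/-- Orders from the two linear series. -/
theorem not_mid_conclusion {p : ℕ} (hpp : p.Prime) (hp : p ≤ 13) (h : SelfCentPrime.Conclusion G p)
    (h1 : 1092 < Nat.card G) (h2 : Nat.card G ≤ 3640) : False := by
  rcases h with ⟨F, _, _, hF, -, ⟨e⟩⟩ | ⟨m, F, _, _, hF, hpm, -, ⟨e⟩⟩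
  · have hN := card_PSL_two_eq hF e
    interval_cases p <;> norm_num at hpp <;> norm_num at hN <;> omega
  · have hN := card_PSL_two_eq hF e
    have hm : m ≤ 3 := by
      by_contra h'
      have : 2 ^ 4 ≤ 2 ^ m := Nat.pow_le_pow_right (by norm_num) (by omega)
      omega
    interval_cases m <;> norm_num at hN hpm <;> omega

/-- A prime whose cube exceeds the order gives order 2448 or 3420. -/
theorem of_large_prime {p : ℕ} (hp : p.Prime) (hd : p ∣ Nat.card G) (hbig : Nat.card G < p ^ 3)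
    (h1 : 1092 < Nat.card G) (h2 : Nat.card G ≤ 3640) :
    Nat.card G = 2448 ∨ Nat.card G = 3420 := by
  have hnc : ¬ IsCyclic G := fun h => hG inferInstance
  rcases S0999.result hnc p hp hd hbig with
    ⟨F, _, _, hF, -, ⟨e⟩⟩ | ⟨m, F, _, _, hF, hpm, -, ⟨e⟩⟩
  · have hN := card_PSL_two_eq hF e
    have hgle : Nat.gcd 2 (p - 1) ≤ 2 := Nat.gcd_le_left _ (by norm_num)
    have hle : p * (p - 1) * (p + 1) ≤ 2 * Nat.card G := hN ▸ Nat.mul_le_mul_right _ hgle
    have hp19 : p ≤ 19 := by
      by_contra h'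
      have : 20 * 19 * 21 ≤ p * (p - 1) * (p + 1) :=
        Nat.mul_le_mul (Nat.mul_le_mul (by omega) (by omega)) (by omega)
      omega
    interval_cases p <;> norm_num at hp <;> norm_num at hN <;> omega
  · have hN := card_PSL_two_eq hF e
    have hm : m ≤ 4 := by
      by_contra h'
      have h5 : 2 ^ 5 ≤ 2 ^ m := Nat.pow_le_pow_right (by norm_num) (by omega)
      have hgle : Nat.gcd 2 (2 ^ m - 1) ≤ 2 := Nat.gcd_le_left _ (by norm_num)
      have hle : 2 ^ m * (2 ^ m - 1) * (2 ^ m + 1) ≤ 2 * Nat.card G :=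
        hN ▸ Nat.mul_le_mul_right _ hgle
      have : 32 * 31 * 33 ≤ 2 ^ m * (2 ^ m - 1) * (2 ^ m + 1) :=
        Nat.mul_le_mul (Nat.mul_le_mul (by omega) (by omega)) (by omega)
      omega
    interval_cases m <;> norm_num at hN hpm <;> omega

/-- The orders left after the elementary tests. -/
theorem card_mem_leftMid (h1 : 1092 < Nat.card G) (h2 : Nat.card G ≤ 3640) :
    Nat.card G ∈ leftMid ∨ Nat.card G = 2448 ∨ Nat.card G = 3420 := by
  by_cases hex : Nat.card G = 2448 ∨ Nat.card G = 3420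
  · exact Or.inr hex
  left
  have hprime : ∀ q : ℕ, q.Prime → q ∣ Nat.card G →
      q ∈ [2, 3, 5, 7, 11, 13] ∧ (q = 13 → 2197 ≤ Nat.card G) ∧ (q = 11 → 1331 ≤ Nat.card G) := by
    intro q hq hd
    have hle : q ^ 3 ≤ Nat.card G := by
      by_contra h
      exact hex (of_large_prime hG hq hd (by omega) h1 h2)
    have h15 : q ≤ 15 := by
      by_contra h
      have : 16 ^ 3 ≤ q ^ 3 := Nat.pow_le_pow_left (by omega) 3
      omega
    refine ⟨?_, ?_, ?_⟩
    · interval_cases q <;> first | decide | norm_num at hq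
    · rintro rfl; simpa using hle
    · rintro rfl; simpa using hle
  have hps : ∀ q, q ∈ primes (Nat.card G) ↔ q.Prime ∧ q ∣ Nat.card G := by
    intro q
    rw [primes, List.mem_filter, beq_iff_eq]
    constructor
    · rintro ⟨h3, h4⟩
      refine ⟨?_, Nat.dvd_of_mod_eq_zero h4⟩
      simp only [List.mem_cons, List.not_mem_nil, or_false] at h3
      rcases h3 with rfl | rfl | rfl | rfl | rfl | rfl | rfl <;> norm_num
    · refine fun ⟨h3, h4⟩ => ⟨?_, Nat.mod_eq_zero_of_dvd h4⟩
      have := (hprime q h3 h4).1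
      simp only [List.mem_cons, List.not_mem_nil, or_false] at this ⊢
      omega
  have hchk : chkMid (Nat.card G) = true := by
    have hn1 : Nat.card G ≠ 1 := by omega
    have hlen : 3 ≤ (primes (Nat.card G)).length := by
      by_contra hlt
      obtain ⟨p, q, hp, hq, hpq⟩ : ∃ p q : ℕ, p.Prime ∧ q.Prime ∧
          ∀ r, r ∈ primes (Nat.card G) → r = p ∨ r = q := by
        rcases hl : primes (Nat.card G) with _ | ⟨p, _ | ⟨q, _ | ⟨r, M⟩⟩⟩
        · exact ⟨2, 2, Nat.prime_two, Nat.prime_two, by simp⟩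
        · have := ((hps p).1 (by rw [hl]; simp)).1
          exact ⟨p, p, this, this, by simp⟩
        · exact ⟨p, q, ((hps p).1 (by rw [hl]; simp)).1, ((hps q).1 (by rw [hl]; simp)).1, by simp⟩
        · rw [hl] at hlt; simp at hlt
      haveI := Char.solvable_of_card_eq_pow_mul_pow p q hp hq (Nat.card G) rfl
        fun r hr hd => hpq r ((hps r).2 ⟨hr, hd⟩)
      exact hG ⟨⟨IsSimpleGroup.comm_iff_isSolvable.2 inferInstance⟩⟩
    have hp3 : (Nat.card G).minFac ^ 3 ∣ Nat.card G ∨ 12 ∣ Nat.card G := by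
      refine Cfsg.Agent.S0073.result ?_
      by_contra h
      push Not at h
      exact hG ⟨⟨h⟩⟩
    simp only [chkMid, Bool.and_eq_true, Bool.or_eq_true, decide_eq_true_eq, beq_iff_eq, bne_iff_ne,
      List.all_eq_true, List.any_eq_true]
    refine ⟨⟨⟨⟨⟨⟨?_, hlen⟩, (Nat.card G).minFac, (hps _).2 ⟨Nat.minFac_prime hn1, Nat.minFac_dvd _⟩,
      fun q hq => Nat.minFac_le_of_dvd ((hps q).1 hq).1.two_le ((hps q).1 hq).2,
      hp3.imp Nat.mod_eq_zero_of_dvd Nat.mod_eq_zero_of_dvd⟩, ?_⟩, ?_⟩, ?_⟩, ?_⟩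
    · refine Nat.mod_eq_zero_of_dvd ((Nat.dvd_iff_prime_pow_dvd_dvd _ _).2 fun q k hq hd => ?_)
      rcases Nat.eq_zero_or_pos k with rfl | hk
      · simp
      have h3 := (hprime q hq ((dvd_pow_self q hk.ne').trans hd)).1
      have hk12 : k ≤ 12 := by
        by_contra h
        have h4 : 2 ^ 13 ≤ q ^ k :=
          (Nat.pow_le_pow_left hq.two_le 13).trans (Nat.pow_le_pow_right hq.pos (by omega))
        have := Nat.le_of_dvd Nat.card_pos hd
        norm_num at h4
        omega
      refine (pow_dvd_pow q hk12).trans (pow_dvd_pow_of_dvd ?_ 12)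
      simp only [List.mem_cons, List.not_mem_nil, or_false] at h3
      rcases h3 with rfl | rfl | rfl | rfl | rfl | rfl <;> norm_num
    · rcases Nat.mod_two_eq_zero_or_one (Nat.card G) with h | h
      · exact Or.inr (Nat.mod_eq_zero_of_dvd (four_dvd_card hG (Nat.dvd_of_mod_eq_zero h)))
      · exact Or.inl (by omega)
    · intro h
      have := (hprime 17 (by norm_num) (Nat.dvd_of_mod_eq_zero h)).1
      simp at this
    · by_cases h : 13 ∣ Nat.card G
      · exact Or.inr ((hprime 13 (by norm_num) h).2.1 rfl)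
      · exact Or.inl fun h' => h (Nat.dvd_of_mod_eq_zero h')
    · by_cases h : 11 ∣ Nat.card G
      · exact Or.inr ((hprime 11 (by norm_num) h).2.2 rfl)
      · exact Or.inl fun h' => h (Nat.dvd_of_mod_eq_zero h')
  have hs := sieveMid_all (Nat.card G - 1093) (by omega)
  rw [show 1093 + (Nat.card G - 1093) = Nat.card G by omega] at hs
  simp only [sieveMid, hchk, Bool.not_true, Bool.false_or, Bool.or_eq_true, List.any_eq_true] at hs
  rcases hs with (hs | hs) | hs
  · simp only [cofKill, List.any_eq_true, Bool.and_eq_true, bne_iff_ne, decide_eq_true_eq] at hs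
    obtain ⟨p, hp, hnd, q, hq, hpq, hg⟩ := hs
    obtain ⟨hpp, hpd⟩ := (hps p).1 hp
    have := Fact.mk hpp
    obtain ⟨b, -, hb⟩ := (Nat.dvd_prime_pow ((hps q).1 hq).1).1
      (Nat.gcd_dvd_right (Nat.card G / p) (q ^ 13))
    obtain ⟨g₀, hg₀⟩ : q ^ b ∣ Nat.card G / p := hb ▸ Nat.gcd_dvd_left _ _
    rw [hb, hg₀, Nat.mul_div_cancel_left _ (pow_pos ((hps q).1 hq).1.pos b)] at hg
    have hcard : Nat.card G = p * q ^ b * g₀ := by
      rw [mul_assoc, ← hg₀, Nat.mul_div_cancel' hpd]
    have hp13 : p ≤ 13 := by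
      have := (hprime p hpp hpd).1
      simp only [List.mem_cons, List.not_mem_nil, or_false] at this
      omega
    exact (not_mid_conclusion hG hpp hp13
      (SelfCentPrime.Cofactor.conclusion_of_card hG ((hps q).1 hq).1 hpq hcard hg).2 h1 h2).elim
  · obtain ⟨r, hr, hk⟩ := hs
    obtain ⟨hrp, hrd⟩ := (hps r).1 hr
    have := Fact.mk hrp
    simp only [primeKill, Bool.and_eq_true, bne_iff_ne] at hk
    obtain ⟨hnd, hall⟩ := hk
    have hm : Nat.card G = r * (Nat.card G / r) := (Nat.mul_div_cancel' hrd).symm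
    have hnd' : ¬ r ∣ Nat.card G / r := fun h => hnd (Nat.mod_eq_zero_of_dvd h)
    obtain ⟨n, k, c, -, hn, hnr, hn1, hk, hk1, hnkc, hf, hP, hC, hNP⟩ :=
      prime_data hG r (Nat.card G / r) _ rfl hm hnd'
    rw [Nat.mem_divisors] at hn hk
    have hnm := Nat.le_of_dvd (Nat.pos_of_ne_zero hn.2) hn.1
    have hjn : (n / r - 1 + 1) * r + 1 = n := by
      have hd := Nat.div_add_mod n r
      have : 1 ≤ n / r := by
        rcases Nat.eq_zero_or_pos (n / r) with h | h
        · rw [h, mul_zero] at hd; omega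
        · exact h
      rw [Nat.sub_add_cancel this, mul_comm]
      omega
    have hd := List.all_eq_true.1 hall (n / r - 1) (List.mem_range.2
      (Nat.lt_succ_of_le ((Nat.sub_le _ _).trans (Nat.div_le_div_right hnm))))
    rw [hjn] at hd
    simp only [Bool.or_eq_true, bne_iff_ne, Bool.not_eq_true', List.all_eq_true,
      List.mem_range, decide_eq_true_eq] at hd
    have hdeg := degOk_card hG (r := r) (k := k) (c := c) (by omega)
      (fun h => hnd' (hnkc ▸ dvd_mul_of_dvd_right (dvd_mul_of_dvd_right h k) n)) hk.1 hP hC hNP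
    exfalso
    rcases hd with (h | h) | h
    · exact h (Nat.mod_eq_zero_of_dvd hn.1)
    · rw [factOk, beq_iff_eq] at hf
      simp [factOk', hf] at h
    · have hkr : k < r := by
        have := Nat.le_of_dvd (Nat.pos_of_ne_zero hk.2) hk.1
        omega
      rcases h k hkr with ((h | h) | h) | h
      · omega
      · exact h (Nat.mod_eq_zero_of_dvd hk.1)
      · exact h (Nat.mod_eq_zero_of_dvd ⟨c, by rw [← hnkc]; ring⟩)
      · rw [← hnkc, ← mul_assoc, Nat.mul_div_cancel_left _ (Nat.mul_pos (by omega) (by omega)),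
          hdeg] at h
        exact absurd h (by simp)
  · simpa using hs

/-- No simple group has order `1680`. -/
theorem not_1680 (e : Nat.card G = 1680) : False := by
  haveI : Fact (Nat.Prime 5) := ⟨by norm_num⟩
  obtain ⟨n, k, c, hn, hd, hm, h1, hk, hk1, he, hf, hP, hC, hN⟩ :=
    prime_data hG 5 336 1680 e (by norm_num) (by norm_num)
  have hdeg := degOk_card hG (r := 5) (k := k) (c := c) (by omega)
    (fun h => by
      have h336 : 5 ∣ 336 := he ▸ dvd_mul_of_dvd_right (dvd_mul_of_dvd_right h k) n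
      norm_num at h336) (Nat.mem_divisors.1 hk).1 hP hC hN
  rw [e] at hdeg
  have hc : c = 336 / (n * k) := by
    rw [← he, ← mul_assoc, Nat.mul_div_cancel_left _ (Nat.mul_pos (by omega) (by omega))]
  have h21 : n = 21 := by
    rw [hc] at hdeg
    exact (by decide +kernel : ∀ n ∈ Nat.divisors 336, n % 5 = 1 → 1 < n →
      factOk 1680 n = true → ∀ k ∈ Nat.divisors (5 - 1), 1 < k →
      degOk 1680 5 k (336 / (n * k)) = true → 336 % (n * k) = 0 → n = 21)
      n hd hm h1 hf k hk hk1 hdeg (Nat.mod_eq_zero_of_dvd ⟨c, by rw [← he]; ring⟩)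
  exact S1010.result (G := G) (hn.trans h21)

omit hG in
/-- `N(P)` normalizes a Sylow `q`-subgroup of `C(P)` if that is normalized by enough of `C(P)`. -/
theorem normalizer_le_normalizer_sylow' {q r c d : ℕ} [hq : Fact q.Prime] [hr : Fact r.Prime]
    (P : Sylow r G) (hP : Nat.card ↥(P : Subgroup G) = r)
    (hC : Nat.card ↥(centralizer ((P : Subgroup G) : Set G)) = q * c)
    (hQ : ∀ Q : Sylow q G, Nat.card ↥(Q : Subgroup G) = q)
    (h1 : ∀ s ∈ c.divisors, s % q = 1 → r * s ∣ q * c → s = 1)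
    (hN : ∀ Q : Sylow q G, Nat.card ↥(normalizer ((Q : Subgroup G) : Set G)) = d) :
    Nat.card ↥(normalizer ((P : Subgroup G) : Set G)) ∣ d := by
  classical
  set C := centralizer ((P : Subgroup G) : Set G) with hCdef
  obtain ⟨y, hy⟩ := exists_prime_orderOf_dvd_card' (G := ↥C) q (hC ▸ dvd_mul_right q c)
  have hc0 : c ≠ 0 := fun h => by rw [h, mul_zero] at hC; exact Nat.card_pos.ne' hC
  have hPC : (P : Subgroup G) ≤ C := by
    haveI := isMulCommutative_of_prime_card (G := ↥(P : Subgroup G)) (by rw [hP]; exact hr.out)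
    exact Subgroup.le_centralizer _
  have hone : Subsingleton (Sylow q ↥C) := by
    refine (Nat.card_eq_one_iff_unique.1 (h1 _ (Nat.mem_divisors.2
      ⟨SmallGroups.card_sylow_dvd (a := 1) (by rw [hC, pow_one]), hc0⟩) ?_ ?_)).1
    · have := card_sylow_modEq_one q ↥C
      rwa [Nat.ModEq, Nat.mod_eq_of_lt hq.out.one_lt] at this
    · obtain ⟨S⟩ := (inferInstance : Nonempty (Sylow q ↥C))
      have hle : (P : Subgroup G).subgroupOf C ≤ normalizer ((S : Subgroup ↥C) : Set ↥C) := by
        intro x hx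
        refine Subgroup.mem_normalizer_iff.2 fun z => ?_
        have hxz : x * z * x⁻¹ = z := Subtype.ext (by
          have h := z.2 (x : G) hx
          simp only [Subgroup.coe_mul, Subgroup.coe_inv]
          rw [h]; simp)
        rw [hxz]
      have hd := Subgroup.card_dvd_of_le hle
      rw [Nat.card_congr (Subgroup.subgroupOfEquivOfLe hPC).toEquiv, hP] at hd
      rw [← hC, ← card_sylow_mul_card_normalizer S, mul_comm r]
      exact mul_dvd_mul_left _ hd
  obtain ⟨Q, hQy⟩ := (IsPGroup.of_card (p := q) (n := 1)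
    (by rw [Nat.card_zpowers, Subgroup.orderOf_coe, hy, pow_one]) :
      IsPGroup q ↥(zpowers (y : G))).exists_le_sylow
  have hQeq : zpowers (y : G) = (Q : Subgroup G) :=
    Subgroup.eq_of_le_of_card_ge hQy (by rw [hQ Q, Nat.card_zpowers, Subgroup.orderOf_coe, hy])
  have hQC : (Q : Subgroup G) ≤ C := hQeq ▸ zpowers_le.2 y.2
  rw [← hN Q]
  refine Subgroup.card_dvd_of_le fun g hg => Subgroup.mem_normalizer_iff_map_conj_eq.2 ?_
  have hgC : C.map (MulAut.conj g).toMonoidHom ≤ C := by
    rintro _ ⟨x, hx, rfl⟩ z hz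
    have h2 := (Subgroup.mem_normalizer_iff.1 (inv_mem hg) z).1 hz
    have h3 : (g⁻¹ * z * g⁻¹⁻¹) * x = x * (g⁻¹ * z * g⁻¹⁻¹) := hx _ h2
    have h4 := congrArg (fun w => g * w * g⁻¹) h3
    simp only [MulEquiv.coe_toMonoidHom, MulAut.conj_apply]
    simpa [mul_assoc] using h4
  have hQg : ((g • Q : Sylow q G) : Subgroup G) ≤ C := (Subgroup.map_mono hQC).trans hgC
  have := Subsingleton.elim ((g • Q).subtype hQg) (Q.subtype hQC)
  exact congrArg (fun R : Sylow q G => (R : Subgroup G)) (Sylow.subtype_injective this)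

/-- No simple group has order `3360`. -/
theorem not_3360 (e : Nat.card G = 3360) : False := by
  haveI : Fact (Nat.Prime 3) := ⟨by norm_num⟩
  haveI : Fact (Nat.Prime 5) := ⟨by norm_num⟩
  haveI : Fact (Nat.Prime 7) := ⟨by norm_num⟩
  obtain ⟨n₅, k₅, c₅, hn₅, hd₅, hm₅, h1₅, hk₅, hk1₅, he₅, hf₅, hP₅, hC₅, hN₅⟩ :=
    prime_data hG 5 672 3360 e (by norm_num) (by norm_num)
  obtain ⟨n₇, k₇, c₇, hn₇, hd₇, hm₇, h1₇, hk₇, hk1₇, he₇, hf₇, hP₇, hC₇, hN₇⟩ :=
    prime_data hG 7 480 3360 e (by norm_num) (by norm_num)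
  obtain ⟨n₃, k₃, c₃, hn₃, hd₃, hm₃, h1₃, hk₃, hk1₃, he₃, hf₃, hP₃, hC₃, hN₃⟩ :=
    prime_data hG 3 1120 3360 e (by norm_num) (by norm_num)
  have deg : ∀ (r m n k c : ℕ) [Fact r.Prime], n * (k * c) = m → 0 < m → ¬ r ∣ m →
      k ∈ (r - 1).divisors →
      (∀ P : Sylow r G, Nat.card ↥(P : Subgroup G) = r) →
      (∀ P : Sylow r G, Nat.card ↥(centralizer ((P : Subgroup G) : Set G)) = r * c) →
      (∀ P : Sylow r G, Nat.card ↥(normalizer ((P : Subgroup G) : Set G)) = r * (k * c)) →
      degOk 3360 r k (m / (n * k)) = true ∧ c = m / (n * k) ∧ m % (n * k) = 0 := by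
    intro r m n k c _ hm h0 hr hk hP hC hN
    have hnk : 0 < n * k := by
      rcases Nat.eq_zero_or_pos (n * k) with h | h
      · rw [← mul_assoc, h, zero_mul] at hm; omega
      · exact h
    have hc : c = m / (n * k) := by rw [← hm, ← mul_assoc, Nat.mul_div_cancel_left _ hnk]
    refine ⟨?_, hc, Nat.mod_eq_zero_of_dvd ⟨c, by rw [← hm]; ring⟩⟩
    rw [← hc, ← e]
    exact degOk_card hG (by omega) (fun h => hr (hm ▸ dvd_mul_of_dvd_right (dvd_mul_of_dvd_right h k) n))
      (Nat.mem_divisors.1 hk).1 hP hC hN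
  obtain ⟨hg₅, hcv₅, hmod₅⟩ := deg 5 672 n₅ k₅ c₅ he₅ (by norm_num) (by norm_num) hk₅ hP₅ hC₅ hN₅
  obtain ⟨hg₇, hcv₇, hmod₇⟩ := deg 7 480 n₇ k₇ c₇ he₇ (by norm_num) (by norm_num) hk₇ hP₇ hC₇ hN₇
  have h5 : (n₅ = 21) ∨ (n₅ = 56 ∧ k₅ = 4) ∨ (n₅ = 336 ∧ k₅ = 2) :=
    (by decide +kernel : ∀ n ∈ Nat.divisors 672, ∀ k ∈ Nat.divisors (5 - 1),
      (n % 5 == 1 && decide (1 < n) && factOk 3360 n && decide (1 < k) &&
        degOk 3360 5 k (672 / (n * k)) && 672 % (n * k) == 0) = true →
      n = 21 ∨ (n = 56 ∧ k = 4) ∨ (n = 336 ∧ k = 2))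
      _ hd₅ _ hk₅ (by simp [hm₅, h1₅, hf₅, hk1₅, hg₅, hmod₅])
  have h7 : (n₇ = 8 ∧ k₇ = 2) ∨ (n₇ = 15 ∧ k₇ = 2) ∨ (n₇ = 120 ∧ k₇ = 2) :=
    (by decide +kernel : ∀ n ∈ Nat.divisors 480, ∀ k ∈ Nat.divisors (7 - 1),
      (n % 7 == 1 && decide (1 < n) && factOk 3360 n && decide (1 < k) &&
        degOk 3360 7 k (480 / (n * k)) && 480 % (n * k) == 0) = true →
      (n = 8 ∧ k = 2) ∨ (n = 15 ∧ k = 2) ∨ (n = 120 ∧ k = 2))
      _ hd₇ _ hk₇ (by simp [hm₇, h1₇, hf₇, hk1₇, hg₇, hmod₇])
  obtain rfl : k₃ = 2 := (by decide : ∀ k ∈ Nat.divisors (3 - 1), 1 < k → k = 2) _ hk₃ hk1₃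
  rcases h7 with ⟨rfl, rfl⟩ | h7
  · obtain ⟨P⟩ := (inferInstance : Nonempty (Sylow 7 G))
    obtain ⟨Q⟩ := (inferInstance : Nonempty (Sylow 7 G))
    have hc : c₇ = 30 := by omega
    subst hc
    have hi : (normalizer ((Q : Subgroup G) : Set G)).index = 8 := by
      rw [← card_sylow_eq_index Q, hn₇]
    exact kill_index hG 7 3360 8 420 (by norm_num) _ hi (P : Subgroup G) (hP₇ P)
      (by rw [hN₇ P]) (by norm_num) (by norm_num [Nat.factorial]) e
  rcases h5 with rfl | ⟨rfl, rfl⟩ | ⟨rfl, rfl⟩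
  · exact S1010.result (G := G) hn₅
  · -- a subgroup of order `15`
    have hc5 : c₅ = 3 := by omega
    subst hc5
    have hmul : n₃ * c₃ = 560 := by linarith
    have h53 : 5 ∣ 3 * c₃ := by
      by_contra h
      exact kill_centralizer hG 5 3 3 c₃ hC₅ hP₅ hP₃ hC₃ (by norm_num) h
    obtain ⟨P⟩ := (inferInstance : Nonempty (Sylow 5 G))
    obtain ⟨Y⟩ := (inferInstance : Nonempty (Sylow 3 G))
    have hd := normalizer_le_normalizer_sylow (q := 3) (r := 5) (c := 5) (d := 3 * (2 * c₃)) P
      (by rw [hC₅ P]) hP₃ (by decide +kernel) hN₃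
    rw [hN₅ P] at hd
    obtain ⟨hcd, hc35⟩ : c₃ = 20 ∧ n₃ = 28 := by
      have hm560 : c₃ ∈ Nat.divisors 560 :=
        Nat.mem_divisors.2 ⟨⟨n₃, by rw [← hmul]; ring⟩, by norm_num⟩
      have hc : c₃ = 560 / n₃ := by rw [← hmul, Nat.mul_div_cancel_left _ (by omega)]
      exact (by decide +kernel : ∀ n ∈ Nat.divisors 1120, ∀ c ∈ Nat.divisors 560,
        (n % 3 == 1 && decide (1 < n) && factOk 3360 n && n * c == 560 && 3 * c % 5 == 0 &&
          3 * (2 * c) % 60 == 0) = true → c = 20 ∧ n = 28)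
        _ hd₃ _ hm560 (by simp [hm₃, h1₃, hf₃, hmul, Nat.mod_eq_zero_of_dvd h53,
          Nat.mod_eq_zero_of_dvd hd])
    subst hcd
    have hd' := normalizer_le_normalizer_sylow' (q := 5) (r := 3) (c := 12) (d := 60) Y (hP₃ Y)
      (by rw [hC₃ Y]) hP₅ (by decide +kernel) (fun Q => by rw [hN₅ Q])
    rw [hN₃ Y] at hd'
    norm_num at hd'
  · -- counting elements
    have hc5 : c₅ = 1 := by omega
    subst hc5
    have hmul : n₃ * c₃ = 560 := by linarith
    refine kill_count hG 5 7 3 1 c₇ c₃ hP₅ hC₅ hP₇ hC₇ hP₃ hC₃ (by norm_num) (by norm_num) ?_ ?_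
    · intro h
      have h480 : 3 ∣ c₇ := (Nat.Coprime.dvd_of_dvd_mul_left (by norm_num) h)
      rcases h7 with ⟨rfl, rfl⟩ | ⟨rfl, rfl⟩ <;> omega
    · have e7 : n₇ * c₇ = 240 := by
        rcases h7 with ⟨rfl, rfl⟩ | ⟨rfl, rfl⟩ <;> omega
      rw [hn₅, hn₇, hn₃, e]
      have e1 : n₇ * ((7 - 1) * c₇) = 6 * (n₇ * c₇) := by ring
      have e2 : n₃ * ((3 - 1) * c₃) = 2 * (n₃ * c₃) := by ring
      rw [e1, e2, e7, hmul]
      norm_num

omit hG in
theorem inf_fixed_card [Fact (Nat.Prime 5)] {α : Type} [Finite α] [MulAction G α] (D : Subgroup G)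
    (hD : Nat.card D = 5) : Nat.card α % 5 = Nat.card (MulAction.fixedPoints D α) % 5 :=
  (IsPGroup.of_card (n := 1) (by rw [hD, pow_one])).card_modEq_card_fixedPoints α

/-- No simple group has order `1800`, and none has order `3600`. -/
theorem not_1800_3600 (e : Nat.card G = 1800 ∨ Nat.card G = 3600) : False := by
  classical
  haveI : Fact (Nat.Prime 5) := ⟨by norm_num⟩
  haveI : Fact (Nat.Prime 2) := ⟨Nat.prime_two⟩
  have hdvd5 : 5 ∣ Nat.card G := by rcases e with e | e <;> rw [e] <;> norm_num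
  obtain ⟨m, hm, hmc⟩ : ∃ m, (m = 72 ∨ m = 144) ∧ Nat.card G = 5 ^ 2 * m := by
    rcases e with e | e
    · exact ⟨72, Or.inl rfl, by rw [e]; norm_num⟩
    · exact ⟨144, Or.inr rfl, by rw [e]; norm_num⟩
  have hm5 : ¬ 5 ∣ m := by rcases hm with rfl | rfl <;> norm_num
  have hP : ∀ R : Sylow 5 G, Nat.card ↥(R : Subgroup G) = 25 :=
    fun R => (SmallGroups.card_sylow_subgroup hmc hm5 R).trans (by norm_num)
  have hab : ∀ R : Sylow 5 G, ∀ a ∈ (R : Subgroup G), ∀ b ∈ (R : Subgroup G), a * b = b * a := by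
    intro R a ha b hb
    have h := (IsPGroup.isMulCommutative_of_card_eq_prime_sq
      (G := ↥(R : Subgroup G)) (p := 5) (by rw [hP R]; norm_num)).is_comm.comm ⟨a, ha⟩ ⟨b, hb⟩
    exact congrArg Subtype.val h
  have hne : Nat.card (Sylow 5 G) % 25 ≠ 1 := by
    have h1 := SmallGroups.card_sylow_mem hG (p := 5) hmc (by omega)
    rw [Finset.mem_filter] at h1
    have hdiv : ∀ s ∈ Nat.divisors 144, s % 5 = 1 → 1 < s → s % 25 ≠ 1 := by decide +kernel
    refine hdiv _ (Nat.mem_divisors.2 ⟨(Nat.mem_divisors.1 h1.1).1.trans ?_, by norm_num⟩) h1.2.1 h1.2.2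
    rcases hm with rfl | rfl <;> norm_num
  obtain ⟨P⟩ := (inferInstance : Nonempty (Sylow 5 G))
  obtain ⟨Q, hQ, hPQ⟩ := exists_inf_five hP hne P
  set D := (P : Subgroup G) ⊓ (Q : Subgroup G) with hDdef
  set H := centralizer (D : Set G) with hHdef
  have hle : ∀ R : Sylow 5 G, D ≤ R → (R : Subgroup G) ≤ H :=
    fun R hR x hx y hy => hab R y (hR hy) x hx
  have hPH := hle P inf_le_left
  have hQH := hle Q inf_le_right
  have hDH : D ≤ H := inf_le_left.trans hPH
  have hH : H ≠ ⊤ := fun hT => by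
    have h1 := Subgroup.centralizer_eq_top_iff_subset.1 hT
    rw [SmallGroups.center_eq_bot hG] at h1
    have h2 : D = ⊥ := eq_bot_iff.2 h1
    rw [h2, Subgroup.card_bot] at hPQ
    omega
  have hindex : ∀ K : Subgroup G, K ≠ ⊤ → 10 ≤ K.index := by
    intro K hK
    by_contra hlt
    have hf := two_mul_card_dvd_factorial hG K hK
    have h2 := K.one_lt_index_of_ne_top hK
    have hd : 5 ^ 2 ∣ K.index.factorial := (dvd_mul_of_dvd_right (hmc ▸ dvd_mul_right _ _) 2).trans hf
    interval_cases K.index <;> norm_num [Nat.factorial] at hd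
  obtain ⟨j, hj⟩ := hP P ▸ Subgroup.card_dvd_of_le hPH
  have hidx : H.index * j = m := by
    have := H.card_mul_index
    rw [hj, hmc] at this
    linarith
  have h1 : 1 < Nat.card (Sylow 5 ↥H) :=
    Finite.one_lt_card_iff_nontrivial.2 ⟨P.subtype hPH, Q.subtype hQH,
      fun h => hQ (Sylow.subtype_injective h).symm⟩
  have h2 := card_sylow_modEq_one 5 ↥H
  rw [Nat.ModEq] at h2
  have hj0 : 0 < j := by
    rcases Nat.eq_zero_or_pos j with rfl | h
    · rw [mul_zero] at hidx; omega
    · exact h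
  have hjn : Nat.card (Sylow 5 ↥H) ∣ j :=
    SmallGroups.card_sylow_dvd (p := 5) (a := 2) (m := j) (G := ↥H) (by rw [hj]; norm_num)
  have hj' : (j = 6 ∧ Nat.card (Sylow 5 ↥H) = 6) ∨ (j = 12 ∧ Nat.card (Sylow 5 ↥H) = 6 ∧ m = 144) := by
    have hi := hindex H hH
    have hjm : j * 10 ≤ m := by rw [← hidx, mul_comm H.index]; exact Nat.mul_le_mul_left j hi
    have hjdvd : j ∣ m := ⟨H.index, by rw [← hidx, mul_comm]⟩
    rcases hm with rfl | rfl
    · exact Or.inl ((by decide +kernel : ∀ j ∈ Nat.divisors 72, ∀ s ∈ Nat.divisors j,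
        (decide (j * 10 ≤ 72) && s % 5 == 1 && decide (1 < s)) = true → j = 6 ∧ s = 6) j
        (Nat.mem_divisors.2 ⟨hjdvd, by norm_num⟩) _ (Nat.mem_divisors.2 ⟨hjn, by omega⟩)
        (by simp [hjm, h1, h2]))
    · rcases (by decide +kernel : ∀ j ∈ Nat.divisors 144, ∀ s ∈ Nat.divisors j,
        (decide (j * 10 ≤ 144) && s % 5 == 1 && decide (1 < s)) = true →
        (j = 6 ∧ s = 6) ∨ (j = 12 ∧ s = 6)) j
        (Nat.mem_divisors.2 ⟨hjdvd, by norm_num⟩) _ (Nat.mem_divisors.2 ⟨hjn, by omega⟩)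
        (by simp [hjm, h1, h2]) with h | h
      · exact Or.inl h
      · exact Or.inr ⟨h.1, h.2, rfl⟩
  rcases hj' with ⟨rfl, hn6⟩ | ⟨rfl, hn6, rfl⟩
  · have := card_sylow_five_eq_one (G := ↥H) (j' := 3) (by rw [hj]) (Or.inl rfl)
    omega
  -- index `12`
  have hi12 : H.index = 12 := by omega
  obtain ⟨x, hxD, hx1⟩ : ∃ x ∈ D, x ≠ 1 := by
    by_contra hcon
    push Not at hcon
    have : D = ⊥ := (Subgroup.eq_bot_iff_forall _).2 hcon
    rw [this, Subgroup.card_bot] at hPQ
    omega
  have hord : ∀ g : G, g ∈ H → g • ((1 : G) : G ⧸ H) = ((1 : G) : G ⧸ H) := by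
    intro g hg
    rw [MulAction.Quotient.smul_coe, smul_eq_mul, mul_one, QuotientGroup.eq, mul_one]
    exact inv_mem hg
  have hpts : Nat.card (G ⧸ H) = 12 := by rw [← Subgroup.index_eq_card, hi12]
  set a : G ⧸ H := ((1 : G) : G ⧸ H) with ha
  -- `H` fixes no second point
  have honly : ∀ b : G ⧸ H, (∀ g ∈ H, g • b = b) → b = a := by
    intro b hb
    induction b using QuotientGroup.induction_on with
    | H g =>
      have hconj : ∀ y ∈ H, g⁻¹ * y * g ∈ H := by
        intro y hy
        have h := hb y hy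
        rw [MulAction.Quotient.smul_coe, smul_eq_mul, QuotientGroup.eq] at h
        have h' := inv_mem h
        rwa [show ((y * g)⁻¹ * g)⁻¹ = g⁻¹ * y * g by group] at h'
      have hgN : g⁻¹ ∈ normalizer (H : Set G) := by
        refine Subgroup.mem_normalizer_iff.2 fun y => ⟨fun hy => by simpa using hconj y hy, fun hy => ?_⟩
        have hbij : Function.Bijective (fun z : H => (⟨g⁻¹ * z * g, hconj z z.2⟩ : H)) :=
          Finite.injective_iff_bijective.1 fun z w h => Subtype.ext (by simpa using congrArg Subtype.val h)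
        obtain ⟨z, hz⟩ := hbij.2 ⟨g⁻¹ * y * g, by simpa using hy⟩
        have hz' : g⁻¹ * (z : G) * g = g⁻¹ * y * g := congrArg Subtype.val hz
        have : (z : G) = y := mul_left_cancel (mul_right_cancel hz')
        exact this ▸ z.2
      by_contra hga
      have hgH : g⁻¹ ∉ H := fun h => hga (by rw [ha, QuotientGroup.eq, mul_one]; exact h)
      have hNT : normalizer (H : Set G) ≠ ⊤ := fun hT => by
        rcases (Subgroup.normalizer_eq_top_iff.1 hT).eq_bot_or_eq_top with h | h
        · rw [h, Subgroup.card_bot] at hj; omega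
        · exact hH h
      have hlt : H < normalizer (H : Set G) :=
        lt_of_le_of_ne Subgroup.le_normalizer fun h => hgH (h.symm ▸ hgN)
      have hN10 := hindex _ hNT
      have hdv := Subgroup.index_dvd_of_le hlt.le
      rw [hi12] at hdv
      have hlti : (normalizer (H : Set G)).index < 12 := hi12 ▸ Subgroup.index_strictAnti hlt
      have hpos := Nat.pos_of_ne_zero (Subgroup.index_ne_zero_of_finite (H := normalizer (H : Set G)))
      interval_cases h : (normalizer (H : Set G)).index <;> omega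
  -- the fixed points of `D`
  let F : Set (G ⧸ H) := MulAction.fixedPoints D (G ⧸ H)
  have haF : a ∈ F := fun d => hord d (hDH d.2)
  have hF := inf_fixed_card (α := G ⧸ H) D hPQ
  rw [hpts, Nat.card_coe_set_eq] at hF
  change 12 % 5 = F.ncard % 5 at hF
  have hFne : F ≠ Set.univ := by
    intro h
    refine hx1 ?_
    have hcore : H.normalCore = ⊥ := by
      refine (Subgroup.normalCore_normal H).eq_bot_or_eq_top.resolve_right fun h' => hH ?_
      exact top_le_iff.1 (h' ▸ Subgroup.normalCore_le H)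
    have hxc : x ∈ H.normalCore := by
      intro g
      have hb : ((g⁻¹ : G) : G ⧸ H) ∈ F := h ▸ Set.mem_univ _
      have := hb ⟨x, hxD⟩
      change x • ((g⁻¹ : G) : G ⧸ H) = _ at this
      rw [MulAction.Quotient.smul_coe, smul_eq_mul, QuotientGroup.eq] at this
      have h' := inv_mem this
      simpa [mul_assoc] using h'
    rwa [hcore, Subgroup.mem_bot] at hxc
  have hFlt : F.ncard < 12 := by
    rw [← hpts, ← Set.ncard_univ]
    exact Set.ncard_lt_ncard (Set.ssubset_univ_iff.2 hFne)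
  have hcomm : ∀ g ∈ H, ∀ d ∈ D, g * d = d * g := fun g hg d hd => (hg d hd).symm
  have hFinv : ∀ g ∈ H, ∀ b ∈ F, g • b ∈ F := by
    intro g hg b hb d
    change (d : G) • g • b = g • b
    rw [← mul_smul, ← hcomm g hg d d.2, mul_smul]
    exact congrArg (g • ·) (hb d)
  have hF27 : F.ncard = 2 ∨ F.ncard = 7 := by omega
  rcases hF27 with h2' | h7'
  · obtain ⟨b, hbF, hba⟩ := Set.exists_ne_of_one_lt_ncard (show 1 < F.ncard by omega) a
    refine hba (honly b fun g hg => ?_)
    obtain ⟨c, d, hcd, hFeq⟩ := Set.ncard_eq_two.1 h2'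
    have hgb := hFinv g hg b hbF
    have hne' : g • b ≠ a := fun h => hba ((smul_left_cancel_iff g).1 (h.trans (hord g hg).symm))
    rw [hFeq] at haF hbF hgb
    simp only [Set.mem_insert_iff, Set.mem_singleton_iff] at haF hbF hgb
    rcases haF with ha' | ha' <;> rcases hbF with hb' | hb' <;> rcases hgb with hg' | hg' <;>
      first
      | exact absurd (hb'.trans ha'.symm) hba
      | exact hg'.trans hb'.symm
      | exact absurd (hg'.trans ha'.symm) hne'
  · -- one orbit of `D` of length five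
    obtain ⟨b, hb⟩ : ∃ b, b ∉ F := by
      by_contra h; push Not at h; exact hFne (Set.eq_univ_of_forall h)
    have hcompl : Fᶜ.ncard = 5 := by
      rw [Set.ncard_compl, hpts, h7']
    have horb : MulAction.orbit D b = Fᶜ := by
      refine Set.eq_of_subset_of_ncard_le ?_ ?_
      · rintro _ ⟨d, rfl⟩ hd
        refine hb ?_
        have h1 := hd (d⁻¹)
        simp only [inv_smul_smul] at h1
        rwa [h1]
      · rw [hcompl]
        have hdv := (IsPGroup.of_card (n := 1) (by rw [hPQ, pow_one]) : IsPGroup 5 D).card_orbit b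
        obtain ⟨i, hi⟩ := hdv
        rw [← Nat.card_coe_set_eq, hi]
        rcases i with _ | i
        · exfalso
          rw [pow_zero, Nat.card_eq_one_iff_unique] at hi
          refine hb fun d => ?_
          have := hi.1
          exact congrArg Subtype.val (Subsingleton.elim (⟨d • b, MulAction.mem_orbit _ _⟩ :
            MulAction.orbit D b) ⟨b, MulAction.mem_orbit_self _⟩)
        · calc 5 = 5 ^ 1 := by norm_num
            _ ≤ _ := Nat.pow_le_pow_right (by norm_num) (by omega)
    -- elements of order prime to five fix `b`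
    have hfix : ∀ g ∈ H, ¬ 5 ∣ orderOf g → g • b = b := by
      intro g hg h5
      have hgb : g • b ∈ Fᶜ := fun h => hb (by
        have := hFinv g⁻¹ (inv_mem hg) _ h
        rwa [inv_smul_smul] at this)
      rw [← horb] at hgb
      obtain ⟨d, hd⟩ := hgb
      change (d : G) • b = g • b at hd
      have hpow : ∀ i : ℕ, g ^ i • b = (d : G) ^ i • b := by
        intro i
        induction i with
        | zero => simp
        | succ i ih =>
          rw [pow_succ', mul_smul, ih, ← mul_smul, (show Commute g d from hcomm g hg d d.2).pow_right i |>.eq,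
            mul_smul, ← hd, ← mul_smul, ← pow_succ]
      have hstab : (d : G) ^ orderOf g ∈ MulAction.stabilizer G b := by
        show (d : G) ^ orderOf g • b = b
        rw [← hpow, pow_orderOf_eq_one, one_smul]
      have hd5 : (d : G) ^ 5 = 1 := by
        rw [← hPQ, ← Subgroup.coe_pow, pow_card_eq_one', Subgroup.coe_one]
      have hd5' : (d : G) ^ 5 ∈ MulAction.stabilizer G b := by rw [hd5]; exact one_mem _
      have hdS : (d : G) ∈ MulAction.stabilizer G b := by
        have hco : Nat.Coprime (orderOf g) 5 :=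
          ((show Nat.Prime 5 by norm_num).coprime_iff_not_dvd.2 h5).symm
        obtain ⟨u, v, huv⟩ : ∃ u v : ℤ, u * orderOf g + v * 5 = 1 :=
          (Nat.isCoprime_iff_coprime.2 hco : IsCoprime ((orderOf g : ℕ) : ℤ) ((5 : ℕ) : ℤ))
        have : (d : G) = ((d : G) ^ orderOf g) ^ u * ((d : G) ^ 5) ^ v := by
          rw [← zpow_natCast, ← zpow_natCast, ← zpow_mul, ← zpow_mul, ← zpow_add,
            show ((orderOf g : ℕ) : ℤ) * u + ((5 : ℕ) : ℤ) * v = 1 by push_cast; linarith, zpow_one]
        rw [this]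
        exact mul_mem (zpow_mem hstab u) (zpow_mem hd5' v)
      rw [← hd]
      exact hdS
    let R : Subgroup G := closure {g | g ∈ H ∧ ¬ 5 ∣ orderOf g}
    have hRne : R ≠ ⊥ := by
      intro h
      obtain ⟨t, ht⟩ := exists_prime_orderOf_dvd_card' (G := ↥H) 2 (by rw [hj]; norm_num)
      have ht' : orderOf (t : G) = 2 := by rw [Subgroup.orderOf_coe, ht]
      have htR : (t : G) ∈ R := subset_closure ⟨t.2, by rw [ht']; norm_num⟩
      rw [h, Subgroup.mem_bot] at htR
      rw [htR, orderOf_one] at ht'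
      omega
    have hRH : R ≤ H := (closure_le _).2 fun g hg => hg.1
    induction b using QuotientGroup.induction_on with
    | H k =>
    have hconjR : ∀ y ∈ R, k * y * k⁻¹ ∈ R := by
      -- the conjugate generators fix `b`, and `k` carries generators to generators
      have hback : ∀ y ∈ R, k⁻¹ * y * k ∈ R := by
        intro y hy
        refine Subgroup.closure_induction ?_ ?_ ?_ ?_ hy
        · rintro g ⟨hg, hg5⟩
          have h := hfix g hg hg5
          rw [MulAction.Quotient.smul_coe, smul_eq_mul, QuotientGroup.eq] at h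
          refine subset_closure ⟨?_, ?_⟩
          · have h' := inv_mem h
            rwa [show ((g * k)⁻¹ * k)⁻¹ = k⁻¹ * g * k by group] at h'
          · rwa [show k⁻¹ * g * k = MulAut.conj k⁻¹ g by simp, MulEquiv.orderOf_eq]
        · simp
        · intro u v _ _ hu hv
          have := mul_mem hu hv
          simpa [mul_assoc] using this
        · intro u _ hu
          have := inv_mem hu
          simpa [mul_assoc] using this
      intro y hy
      have hbij : Function.Bijective (fun z : R => (⟨k⁻¹ * z * k, hback z z.2⟩ : R)) :=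
        Finite.injective_iff_bijective.1 fun z w h => Subtype.ext (by simpa using congrArg Subtype.val h)
      obtain ⟨z, hz⟩ := hbij.2 ⟨y, hy⟩
      have hz' : k⁻¹ * (z : G) * k = y := congrArg Subtype.val hz
      rw [← hz']
      simpa [mul_assoc] using z.2
    have hN : ∀ g ∈ H, g ∈ normalizer (R : Set G) := by
      intro g hg
      have key : ∀ g ∈ H, ∀ y ∈ R, g * y * g⁻¹ ∈ R := by
        intro g hg y hy
        refine Subgroup.closure_induction ?_ ?_ ?_ ?_ hy
        · rintro u ⟨hu, hu5⟩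
          refine subset_closure ⟨mul_mem (mul_mem hg hu) (inv_mem hg), ?_⟩
          rwa [show g * u * g⁻¹ = MulAut.conj g u by simp, MulEquiv.orderOf_eq]
        · simp
        · intro u v _ _ hu hv
          have := mul_mem hu hv
          simpa [mul_assoc] using this
        · intro u _ hu
          have := inv_mem hu
          simpa [mul_assoc] using this
      refine Subgroup.mem_normalizer_iff.2 fun y => ⟨key g hg y, fun hy => ?_⟩
      have := key g⁻¹ (inv_mem hg) _ hy
      simpa [mul_assoc] using this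
    have hkN : k ∈ normalizer (R : Set G) := by
      refine Subgroup.mem_normalizer_iff.2 fun y => ⟨hconjR y, fun hy => ?_⟩
      have hbij : Function.Bijective (fun z : R => (⟨k * z * k⁻¹, hconjR z z.2⟩ : R)) :=
        Finite.injective_iff_bijective.1 fun z w h => Subtype.ext (by simpa using congrArg Subtype.val h)
      obtain ⟨z, hz⟩ := hbij.2 ⟨k * y * k⁻¹, hy⟩
      have hz' : k * (z : G) * k⁻¹ = k * y * k⁻¹ := congrArg Subtype.val hz
      exact (mul_left_cancel (mul_right_cancel hz')) ▸ z.2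
    have hkH : k ∉ H := fun h => hb (by
      rw [show ((k : G) : G ⧸ H) = a by rw [ha, QuotientGroup.eq, mul_one]; exact inv_mem h]
      exact haF)
    have hlt : H < normalizer (R : Set G) :=
      lt_of_le_of_ne hN fun h => hkH (h ▸ hkN)
    have hNT : normalizer (R : Set G) ≠ ⊤ := fun hT => by
      rcases (Subgroup.normalizer_eq_top_iff.1 hT).eq_bot_or_eq_top with h | h
      · exact hRne h
      · exact hH (top_le_iff.1 (h ▸ hRH))
    have hN10 := hindex _ hNT
    have hdv := Subgroup.index_dvd_of_le hlt.le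
    rw [hi12] at hdv
    have hlti : (normalizer (R : Set G)).index < 12 := hi12 ▸ Subgroup.index_strictAnti hlt
    interval_cases h : (normalizer (R : Set G)).index <;> omega

end Cfsg.Agent.FGS75.SmallSimple
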